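import Mathlib
import Cfsg.Prelude.Def_Local
import Cfsg.Agent.Lib.Cores
import Cfsg.Agent.Lib.SubnormalJoin
import Cfsg.Agent.Lib.SylowNormalInf
import Cfsg.Agent.Transfer.PNilpotentBasic
import Cfsg.Agent.Characters.CNBasic

/-!
# Groups in which the centralizers of elements of order `p` have normal `p`-complements

* `isPGroup_of_normal`: a normal subgroup with a normal `p`-complement is a `p`-group, if `O_{p'}(G) = 1`;
* `pCore_eq_bot`: the `p`-core is trivial if the fusion of a central element of `P` is controlled by `N(P)`;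
* `exists_simple`: `G` has a nonabelian simple normal subgroup with trivial centralizer.
-/

set_option autoImplicit false

namespace Cfsg.Agent.H267.Red

open Cfsg Subgroup

variable {G : Type*} [Group G] [Finite G] {p : ℕ} [Fact p.Prime]

theorem nil_of_sylow (P : Sylow p G)
    (hb : ∀ x ∈ (P : Subgroup G), orderOf x = p → HasNormalPComplement p (centralizer ({x} : Set G)))
    (x : G) (hx : orderOf x = p) : HasNormalPComplement p (centralizer ({x} : Set G)) := by
  have hz : IsPGroup p (zpowers x) := by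
    refine IsPGroup.of_card (n := 1) ?_
    rw [Nat.card_zpowers, hx, pow_one]
  obtain ⟨Q, hQ⟩ := hz.exists_le_sylow
  obtain ⟨g, hg⟩ := MulAction.exists_smul_eq G Q P
  have h1 : g * x * g⁻¹ ∈ (P : Subgroup G) := by
    rw [← hg, Sylow.coe_subgroup_smul, Subgroup.mem_pointwise_smul_iff_inv_smul_mem, ← map_inv,
      MulAut.smul_def, MulAut.conj_apply, inv_inv]
    have : g⁻¹ * (g * x * g⁻¹) * g = x := by group
    rw [this]
    exact hQ (mem_zpowers x)
  have h2 : orderOf (g * x * g⁻¹) = p := by
    have : g * x * g⁻¹ = MulAut.conj g x := by rw [MulAut.conj_apply]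
    rw [this, MulEquiv.orderOf_eq, hx]
  refine Transfer.PNilpotentBasic.hnc_of_map_le (MulAut.conj g).toMonoidHom (MulAut.conj g).injective _ _
    ?_ (hb _ h1 h2)
  rintro _ ⟨c, hc, rfl⟩
  have h3 : c * x = x * c := mem_centralizer_singleton_iff.1 hc
  rw [mem_centralizer_singleton_iff]
  show (g * c * g⁻¹) * (g * x * g⁻¹) = (g * x * g⁻¹) * (g * c * g⁻¹)
  calc (g * c * g⁻¹) * (g * x * g⁻¹) = g * (c * x) * g⁻¹ := by group
    _ = g * (x * c) * g⁻¹ := by rw [h3]
    _ = _ := by group

/-- A normal `p`-complement makes the index of the `p'`-core a power of `p`. -/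
theorem index_pPrimeCore {C : Type*} [Group C] [Finite C]
    (h : HasNormalPComplement p C) : ∃ k : ℕ, (pPrimeCore p C).index = p ^ k := by
  have hp : p.Prime := Fact.out
  obtain ⟨P, N, hN, hc⟩ := h
  have h1 : Nat.card N * Nat.card P = Nat.card C := hc.card_mul_card
  have h2 : N.index = Nat.card P := hc.symm.index_eq_card
  have h3 : (Nat.card N).Coprime p := by
    have h4 : Nat.card N = (P : Subgroup C).index := by
      have h5 := (P : Subgroup C).card_mul_index
      have h6 : 0 < Nat.card P := Nat.card_pos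
      have h7 : Nat.card P * Nat.card N = Nat.card P * (P : Subgroup C).index := by
        rw [h5, ← h1, mul_comm]
      exact Nat.eq_of_mul_eq_mul_left h6 h7
    rw [h4]
    exact ((Nat.Prime.coprime_iff_not_dvd hp).2 P.not_dvd_index).symm
  have h4 : N ≤ pPrimeCore p C := Lib.Cores.le_pPrimeCore hN h3
  have h5 : (pPrimeCore p C).index ∣ N.index := Subgroup.index_dvd_of_le h4
  obtain ⟨n, hn⟩ := IsPGroup.iff_card.1 P.isPGroup'
  rw [h2, hn] at h5
  obtain ⟨k, -, hk⟩ := (Nat.dvd_prime_pow hp).1 h5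
  exact ⟨k, hk⟩

theorem isPGroup_of_normal (hO : pPrimeCore p G = ⊥) {N : Subgroup G} (hN : N.Normal)
    (h : HasNormalPComplement p N) : IsPGroup p N := by
  have h1 := Lib.Cores.map_subtype_pPrimeCore p hN
  rw [hO, inf_bot_eq] at h1
  have h2 : pPrimeCore p N = ⊥ := (Subgroup.map_eq_bot_iff_of_injective _ N.subtype_injective).1 h1
  obtain ⟨k, hk⟩ := index_pPrimeCore h
  rw [h2, index_bot] at hk
  exact IsPGroup.of_card hk

/-- `O_p(G) = 1`. -/
theorem pCore_eq_bot (hO : pPrimeCore p G = ⊥) (P : Sylow p G) (hnn : ¬ (P : Subgroup G).Normal)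
    (ha : ∀ x ∈ (P : Subgroup G), ∀ y ∈ (P : Subgroup G), (∃ g : G, g * x * g⁻¹ = y) →
      ∃ n ∈ Subgroup.normalizer ((P : Subgroup G) : Set G), n * x * n⁻¹ = y)
    (hnil : ∀ x : G, orderOf x = p → HasNormalPComplement p (centralizer ({x} : Set G))) :
    pCore p G = ⊥ := by
  have hp : p.Prime := Fact.out
  by_contra hne
  have hOn := Lib.Cores.pCore_normal (G := G) p
  have hOP : pCore p G ≤ (P : Subgroup G) := Lib.Cores.pCore_le_sylow P
  obtain ⟨w, hwO, hw1, hwc⟩ := Characters.CNBasic.exists_mem_center_of_normal (p := p)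
    (P : Subgroup G) P.isPGroup' (pCore p G) (Lib.Cores.pCore_isPGroup p) hne
    (fun t _ d hd => hOn.conj_mem d hd t)
  -- a power of order `p`
  obtain ⟨m, hm⟩ : ∃ m : ℕ, orderOf w = p ^ m := by
    obtain ⟨m, hm⟩ := (P.isPGroup'.exists_orderOf_eq_pow : ∀ g : (P : Subgroup G), _) ⟨w, hOP hwO⟩
    rw [Subgroup.orderOf_mk] at hm
    exact ⟨m, hm⟩
  obtain ⟨j, rfl⟩ : ∃ j, m = j + 1 := by
    cases m with
    | zero =>
      rw [pow_zero] at hm
      exact absurd (orderOf_eq_one_iff.1 hm) hw1
    | succ j => exact ⟨j, rfl⟩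
  set z : G := w ^ p ^ j with hz
  have hzo : orderOf z = p := by
    rw [hz, orderOf_pow_of_dvd (pow_ne_zero _ hp.ne_zero)
      (by rw [hm]; exact pow_dvd_pow _ (Nat.le_succ _)), hm, pow_succ,
      Nat.mul_div_cancel_left _ (pow_pos hp.pos _)]
  have hzO : z ∈ pCore p G := pow_mem hwO _
  have hzc : ∀ t ∈ (P : Subgroup G), t * z = z * t := fun t ht =>
    (Commute.pow_right (hwc t ht : Commute t w) _).eq
  -- the conjugates of `z` are centralized by `P`
  have hconj : ∀ g : G, ∀ t ∈ (P : Subgroup G), t * (g * z * g⁻¹) = g * z * g⁻¹ * t := by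
    intro g t ht
    obtain ⟨n, hn, hnz⟩ := ha z (hOP hzO) (g * z * g⁻¹) (hOP (hOn.conj_mem z hzO g)) ⟨g, rfl⟩
    rw [← hnz]
    have h1 : n⁻¹ * t * n ∈ (P : Subgroup G) := by
      have := (mem_normalizer_iff.1 (inv_mem hn) t).1 ht
      rwa [inv_inv] at this
    have h2 := hzc _ h1
    calc t * (n * z * n⁻¹) = n * ((n⁻¹ * t * n) * z) * n⁻¹ := by group
      _ = n * (z * (n⁻¹ * t * n)) * n⁻¹ := by rw [h2]
      _ = n * z * n⁻¹ * t := by group
  set V : Subgroup G := normalClosure ({z} : Set G) with hV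
  have hVn : V.Normal := normalClosure_normal
  set C : Subgroup G := centralizer (V : Set G) with hC
  have hCn : C.Normal := by
    refine ⟨fun c hc g => ?_⟩
    rw [hC, mem_centralizer_iff] at hc ⊢
    intro v hv
    have h1 := hc (g⁻¹ * v * g⁻¹⁻¹) (hVn.conj_mem v hv g⁻¹)
    rw [inv_inv] at h1
    calc v * (g * c * g⁻¹) = g * ((g⁻¹ * v * g) * c) * g⁻¹ := by group
      _ = g * (c * (g⁻¹ * v * g)) * g⁻¹ := by rw [h1]
      _ = g * c * g⁻¹ * v := by group
  have hPC : (P : Subgroup G) ≤ C := by
    intro t ht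
    have hle : V ≤ centralizer ({t} : Set G) := by
      rw [hV, normalClosure, closure_le]
      intro y hy
      rw [Group.mem_conjugatesOfSet_iff] at hy
      obtain ⟨a, ha', hay⟩ := hy
      rw [Set.mem_singleton_iff] at ha'
      subst ha'
      obtain ⟨g, rfl⟩ := isConj_iff.1 hay
      rw [SetLike.mem_coe, mem_centralizer_singleton_iff]
      exact (hconj g t ht).symm
    rw [hC, mem_centralizer_iff]
    intro v hv
    exact mem_centralizer_singleton_iff.1 (hle hv)
  have hCz : C ≤ centralizer ({z} : Set G) := by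
    intro c hc
    rw [mem_centralizer_singleton_iff]
    rw [hC, mem_centralizer_iff] at hc
    exact (hc z (subset_normalClosure (Set.mem_singleton z))).symm
  have hCp : IsPGroup p C :=
    isPGroup_of_normal hO hCn (Transfer.PNilpotentBasic.hnc_of_le hCz (hnil z hzo))
  have hCP : C = (P : Subgroup G) := P.is_maximal' hCp hPC
  exact hnn (hCP ▸ hCn)

/-- Normal subgroups have order divisible by `p` and trivial centralizer. -/
theorem normal_prop (hO : pPrimeCore p G = ⊥) (hOp : pCore p G = ⊥)
    (hnil : ∀ x : G, orderOf x = p → HasNormalPComplement p (centralizer ({x} : Set G)))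
    {N : Subgroup G} (hN : N.Normal) (hne : N ≠ ⊥) :
    p ∣ Nat.card N ∧ centralizer (N : Set G) = ⊥ := by
  have hp : p.Prime := Fact.out
  constructor
  · by_contra hd
    have h1 := Lib.Cores.le_pPrimeCore hN ((Nat.Prime.coprime_iff_not_dvd hp).2 hd).symm
    rw [hO] at h1
    exact hne (le_bot_iff.1 h1)
  · have hCn : (centralizer (N : Set G)).Normal := by
      refine ⟨fun c hc g => ?_⟩
      rw [mem_centralizer_iff] at hc ⊢
      intro v hv
      have h1 := hc (g⁻¹ * v * g⁻¹⁻¹) (hN.conj_mem v hv g⁻¹)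
      rw [inv_inv] at h1
      calc v * (g * c * g⁻¹) = g * ((g⁻¹ * v * g) * c) * g⁻¹ := by group
        _ = g * (c * (g⁻¹ * v * g)) * g⁻¹ := by rw [h1]
        _ = g * c * g⁻¹ * v := by group
    by_cases hd : p ∣ Nat.card (centralizer (N : Set G))
    · exfalso
      obtain ⟨x, hx⟩ := exists_prime_orderOf_dvd_card' p hd
      rw [← Subgroup.orderOf_coe] at hx
      have h1 : N ≤ centralizer ({(x : G)} : Set G) := by
        intro n hn
        rw [mem_centralizer_singleton_iff]
        exact mem_centralizer_iff.1 x.2 n hn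
      have h2 := isPGroup_of_normal hO hN (Transfer.PNilpotentBasic.hnc_of_le h1 (hnil _ hx))
      have h3 := Lib.Cores.le_pCore hN h2
      rw [hOp] at h3
      exact hne (le_bot_iff.1 h3)
    · have h1 := Lib.Cores.le_pPrimeCore hCn ((Nat.Prime.coprime_iff_not_dvd hp).2 hd).symm
      rw [hO] at h1
      exact le_bot_iff.1 h1

theorem exists_simple [Nontrivial G] (hO : pPrimeCore p G = ⊥) (hOp : pCore p G = ⊥)
    (hnil : ∀ x : G, orderOf x = p → HasNormalPComplement p (centralizer ({x} : Set G))) :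
    ∃ S : Subgroup G, S.Normal ∧ IsSimpleGroup S ∧ (¬ ∀ a b : S, a * b = b * a) ∧
      centralizer (S : Set G) = ⊥ ∧ p ∣ Nat.card S := by
  have hp : p.Prime := Fact.out
  obtain ⟨S, hSn, -, hS, hmin⟩ := Lib.SubnormalJoin.exists_minimal_normal_le (⊤ : Subgroup G)
    inferInstance top_ne_bot
  obtain ⟨hd, hC⟩ := normal_prop hO hOp hnil hSn hS
  -- the cores of `S`
  have hSO : pPrimeCore p S = ⊥ := by
    have h1 := Lib.Cores.map_subtype_pPrimeCore p hSn
    rw [hO, inf_bot_eq] at h1
    exact (Subgroup.map_eq_bot_iff_of_injective _ S.subtype_injective).1 h1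
  have hSOp : pCore p S = ⊥ := by
    have h1 := Lib.Cores.map_subtype_pCore p hSn
    rw [hOp, inf_bot_eq] at h1
    exact (Subgroup.map_eq_bot_iff_of_injective _ S.subtype_injective).1 h1
  have hSnil : ∀ x : S, orderOf x = p → HasNormalPComplement p (centralizer ({x} : Set S)) := by
    intro x hx
    refine Transfer.PNilpotentBasic.hnc_of_map_le S.subtype S.subtype_injective _ _ ?_
      (hnil (x : G) (by rw [Subgroup.orderOf_coe]; exact hx))
    rintro _ ⟨c, hc, rfl⟩
    rw [mem_centralizer_singleton_iff]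
    exact congrArg Subtype.val (mem_centralizer_singleton_iff.1 hc)
  have hSnt : Nontrivial S := (Subgroup.nontrivial_iff_ne_bot S).2 hS
  refine ⟨S, hSn, ⟨?_⟩, ?_, hC, hd⟩
  · intro N hN
    by_cases hNb : N = ⊥
    · exact Or.inl hNb
    right
    obtain ⟨M, hMn, hMN, hM, hMmin⟩ := Lib.SubnormalJoin.exists_minimal_normal_le N hN hNb
    have hMC := (normal_prop hSO hSOp hSnil hMn hM).2
    -- `M` is normal in `G`
    have hconj : ∀ g : G, ∀ m ∈ M, ∀ (h : g * (m : G) * g⁻¹ ∈ S), (⟨g * (m : G) * g⁻¹, h⟩ : S) ∈ M := by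
      intro g m hm h
      set φ : MulAut S := MulAut.conjNormal g with hφ
      have hφa : ∀ s : S, ((φ s : S) : G) = g * s * g⁻¹ := fun s => MulAut.conjNormal_apply g s
      set M' : Subgroup S := M.map φ.toMonoidHom with hM'
      have hM'n : M'.Normal := hMn.map _ φ.surjective
      have hinf : M' ⊓ M = ⊥ ∨ M' ⊓ M = M := hMmin _ (by
        exact Subgroup.normal_inf_normal M' M) inf_le_right
      rcases hinf with h1 | h1
      · exfalso
        apply hM
        have h2 : M' ≤ centralizer (M : Set S) := by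
          intro a ha
          rw [mem_centralizer_iff]
          intro b hb
          have h3 : b * a * b⁻¹ * a⁻¹ ∈ M' ⊓ M := by
            refine ⟨M'.mul_mem (hM'n.conj_mem a ha b) (M'.inv_mem ha), ?_⟩
            have h4 : b * a * b⁻¹ * a⁻¹ = b * (a * b⁻¹ * a⁻¹) := by group
            rw [h4]
            exact M.mul_mem hb (hMn.conj_mem _ (M.inv_mem hb) a)
          rw [h1, mem_bot] at h3
          exact mul_inv_eq_iff_eq_mul.1 (mul_inv_eq_one.1 h3)
        rw [hMC, le_bot_iff] at h2
        exact (Subgroup.map_eq_bot_iff_of_injective _ φ.injective).1 h2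
      · -- `M ≤ M'`, equal cardinalities
        have h2 : M ≤ M' := by
          rw [← h1]
          exact inf_le_left
        have h3 : M = M' := by
          apply Subgroup.eq_of_le_of_card_ge h2
          rw [hM', Nat.card_congr (M.equivMapOfInjective φ.toMonoidHom φ.injective).toEquiv]
        rw [h3]
        exact ⟨m, hm, Subtype.ext (hφa m)⟩
    have hMG : (M.map S.subtype).Normal := by
      refine ⟨?_⟩
      rintro _ ⟨m, hm, rfl⟩ g
      exact ⟨_, hconj g m hm (hSn.conj_mem m m.2 g), rfl⟩
    rcases hmin _ hMG (Subgroup.map_subtype_le M) with h1 | h1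
    · exact absurd ((Subgroup.map_eq_bot_iff_of_injective _ S.subtype_injective).1 h1) hM
    · rw [eq_top_iff]
      intro s _
      apply hMN
      have h2 : (s : G) ∈ M.map S.subtype := by rw [h1]; exact s.2
      obtain ⟨m, hm, hms⟩ := h2
      rw [← Subtype.ext hms]
      exact hm
  · intro hab
    have h1 : S ≤ centralizer (S : Set G) := by
      intro s hs
      rw [mem_centralizer_iff]
      intro t ht
      exact congrArg Subtype.val (hab ⟨t, ht⟩ ⟨s, hs⟩)
    rw [hC, le_bot_iff] at h1
    exact hS h1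

end Cfsg.Agent.H267.Red
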