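import Mathlib
import Cfsg.Prelude.Def_Balance
import Cfsg.Agent.H267.Red

/-!
# The `p'`-core of the centralizer of an element with a `p`-nilpotent centralizer

If `C_G(z)` has a normal `p`-complement then `O_{p'}(C_G(z))` is the set of the `p'`-elements commuting with `z`.
-/

set_option autoImplicit false

namespace Cfsg.Agent.H267.OddCore

open Cfsg Subgroup

variable {G : Type*} [Group G] [Finite G] {p : ℕ} [Fact p.Prime]

theorem mem_pPrimeCore_iff {C : Type*} [Group C] [Finite C] (h : HasNormalPComplement p C) (y : C) :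
    y ∈ pPrimeCore p C ↔ ¬ p ∣ orderOf y := by
  have hp : p.Prime := Fact.out
  have hnormal : (pPrimeCore p C).Normal := Lib.Cores.pPrimeCore_normal p
  constructor
  · intro hy hdvd
    have h1 : (Nat.card (pPrimeCore p C)).Coprime p := Lib.Cores.pPrimeCore_coprime p
    have h2 : orderOf y ∣ Nat.card (pPrimeCore p C) := by
      have := orderOf_dvd_natCard (⟨y, hy⟩ : pPrimeCore p C)
      rwa [Subgroup.orderOf_mk] at this
    exact (Nat.Prime.coprime_iff_not_dvd hp).1 h1.symm (hdvd.trans h2)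
  · intro hy
    obtain ⟨k, hk⟩ := Red.index_pPrimeCore h
    have h1 : (QuotientGroup.mk y : C ⧸ pPrimeCore p C) = 1 := by
      rw [← orderOf_eq_one_iff]
      have h2 : orderOf (QuotientGroup.mk y : C ⧸ pPrimeCore p C) ∣ p ^ k := by
        rw [← hk]
        exact orderOf_dvd_natCard _
      have h3 : orderOf (QuotientGroup.mk y : C ⧸ pPrimeCore p C) ∣ orderOf y :=
        orderOf_map_dvd (QuotientGroup.mk' (pPrimeCore p C)) y
      have h4 : Nat.Coprime (p ^ k) (orderOf y) :=
        Nat.Coprime.pow_left _ ((Nat.Prime.coprime_iff_not_dvd hp).2 hy)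
      exact Nat.eq_one_of_dvd_coprimes h4 h2 h3
    exact (QuotientGroup.eq_one_iff y).1 h1

/-- `O_{p'}(C_G(z))` is the set of the `p'`-elements of `C_G(z)`. -/
theorem mem_core_iff {z : G} (h : HasNormalPComplement p (centralizer ({z} : Set G))) (u : G) :
    u ∈ centralizerPPrimeCore p z ↔ u * z = z * u ∧ ¬ p ∣ orderOf u := by
  constructor
  · rintro ⟨c, hc, rfl⟩
    refine ⟨mem_centralizer_singleton_iff.1 c.2, ?_⟩
    have := (mem_pPrimeCore_iff h c).1 hc
    rwa [← Subgroup.orderOf_coe] at this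
  · rintro ⟨h1, h2⟩
    refine ⟨⟨u, mem_centralizer_singleton_iff.2 h1⟩, (mem_pPrimeCore_iff h _).2 ?_, rfl⟩
    rwa [Subgroup.orderOf_mk]

/-- conjugation -/
theorem conj_mem_core {z : G} (h : HasNormalPComplement p (centralizer ({z} : Set G))) {g : G}
    (h' : HasNormalPComplement p (centralizer ({g * z * g⁻¹} : Set G))) {u : G}
    (hu : u ∈ centralizerPPrimeCore p z) : g * u * g⁻¹ ∈ centralizerPPrimeCore p (g * z * g⁻¹) := by
  obtain ⟨h1, h2⟩ := (mem_core_iff h u).1 hu
  refine (mem_core_iff h' _).2 ⟨?_, ?_⟩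
  · calc (g * u * g⁻¹) * (g * z * g⁻¹) = g * (u * z) * g⁻¹ := by group
      _ = g * (z * u) * g⁻¹ := by rw [h1]
      _ = _ := by group
  · have : g * u * g⁻¹ = MulAut.conj g u := by rw [MulAut.conj_apply]
    rwa [this, MulEquiv.orderOf_eq]

/-- the core is normalized by the centralizer -/
theorem conj_mem_core' {z : G} (h : HasNormalPComplement p (centralizer ({z} : Set G))) {g : G}
    (hg : g * z = z * g) {u : G}
    (hu : u ∈ centralizerPPrimeCore p z) : g * u * g⁻¹ ∈ centralizerPPrimeCore p z := by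
  have h1 : g * z * g⁻¹ = z := by rw [hg, mul_inv_cancel_right]
  have h2 := conj_mem_core h (g := g) (by rwa [h1]) hu
  rwa [h1] at h2

/-- A trivial core makes the centralizer a `p`-group. -/
theorem isPGroup_centralizer {z : G} (h : HasNormalPComplement p (centralizer ({z} : Set G)))
    (h1 : centralizerPPrimeCore p z = ⊥) : IsPGroup p (centralizer ({z} : Set G)) := by
  obtain ⟨k, hk⟩ := Red.index_pPrimeCore h
  have h2 : pPrimeCore p (centralizer ({z} : Set G)) = ⊥ :=
    (Subgroup.map_eq_bot_iff_of_injective _ (Subgroup.subtype_injective _)).1 h1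
  rw [h2, index_bot] at hk
  exact IsPGroup.of_card hk

/-- Commutators of a core element with a `p`-element that is itself a `p`-element vanish. -/
theorem comm_of_pelt {z : G} (h : HasNormalPComplement p (centralizer ({z} : Set G))) {u r : G}
    (hu : u ∈ centralizerPPrimeCore p z) (hr : r * z = z * r) {k : ℕ}
    (hk : (u * r * u⁻¹ * r⁻¹) ^ p ^ k = 1) : u * r = r * u := by
  have hp : p.Prime := Fact.out
  have h1 : u * r * u⁻¹ * r⁻¹ ∈ centralizerPPrimeCore p z := by
    have h2 : u * r * u⁻¹ * r⁻¹ = u * (r * u⁻¹ * r⁻¹) := by group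
    rw [h2]
    exact mul_mem hu (conj_mem_core' h hr (inv_mem hu))
  have h2 := ((mem_core_iff h _).1 h1).2
  have h3 : orderOf (u * r * u⁻¹ * r⁻¹) ∣ p ^ k := orderOf_dvd_of_pow_eq_one hk
  have h4 : orderOf (u * r * u⁻¹ * r⁻¹) = 1 :=
    Nat.eq_one_of_dvd_coprimes (Nat.Coprime.pow_left _ ((Nat.Prime.coprime_iff_not_dvd hp).2 h2)) h3 dvd_rfl
  have h5 := orderOf_eq_one_iff.1 h4
  exact mul_inv_eq_iff_eq_mul.1 (mul_inv_eq_one.1 h5)

end Cfsg.Agent.H267.OddCore
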