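import Mathlib
import Cfsg.Prelude.Def_Balance
import Cfsg.Agent.H267.OddCore
import Cfsg.Agent.Lib.SylowNormalInf
import Cfsg.Agent.SmallSimple.SylowEight

/-!
# A normal simple subgroup with elementary abelian Sylow 2-subgroups and one class of involutions

In a group with 2-nilpotent centralizers of involutions and fusion controlled by `N(P)`, the Sylow 2-subgroup `P` is
elementary abelian with all its involutions conjugate.
-/

set_option autoImplicit false

namespace Cfsg.Agent.H267.ClaimE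

open Cfsg Subgroup

variable {G : Type*} [Group G] [Finite G]

theorem normalizer_of_finite {K : Subgroup G} {x : G} (h : ∀ u ∈ K, x * u * x⁻¹ ∈ K) :
    x ∈ Subgroup.normalizer (K : Set G) := by
  rw [Subgroup.mem_normalizer_iff]
  intro u
  refine ⟨h u, fun hu => ?_⟩
  let f : K → K := fun u => ⟨x * u * x⁻¹, h u u.2⟩
  have hf : Function.Injective f := by
    intro u v huv
    have : x * (u : G) * x⁻¹ = x * (v : G) * x⁻¹ := congrArg Subtype.val huv
    exact Subtype.ext (mul_left_cancel (mul_right_cancel this))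
  obtain ⟨v, hv⟩ := (Finite.injective_iff_surjective.1 hf) ⟨_, hu⟩
  have : x * (v : G) * x⁻¹ = x * u * x⁻¹ := congrArg Subtype.val hv
  rw [← mul_left_cancel (mul_right_cancel this)]
  exact v.2

/-- `x ^ (2 ^ m)` of odd order, for some `m`. -/
theorem exists_odd_pow (x : G) : ∃ m : ℕ, ¬ 2 ∣ orderOf (x ^ 2 ^ m) := by
  have hx : 0 < orderOf x := orderOf_pos x
  obtain ⟨m, k, hk, hxk⟩ := Nat.exists_eq_pow_mul_and_not_dvd hx.ne' 2 (by norm_num)
  refine ⟨m, ?_⟩
  rw [orderOf_pow_of_dvd (pow_ne_zero _ (by norm_num)) (by rw [hxk]; exact dvd_mul_right _ _), hxk,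
    Nat.mul_div_cancel_left _ (pow_pos (by norm_num) _)]
  exact hk

/-- an odd order element is a power of its `2 ^ m`-th power -/
theorem mem_zpowers_pow {x : G} (hx : ¬ 2 ∣ orderOf x) (m : ℕ) : x ∈ zpowers (x ^ 2 ^ m) := by
  have h1 : (orderOf x).Coprime (2 ^ m) :=
    (Nat.Coprime.pow_left m ((Nat.Prime.coprime_iff_not_dvd Nat.prime_two).2 hx)).symm
  obtain ⟨j, hj⟩ := exists_pow_eq_self_of_coprime (x := x) h1.symm
  exact mem_zpowers_iff.2 ⟨j, by rw [zpow_natCast, hj]⟩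

theorem exists_odd_normalizer {J : Type*} [Group J] [Finite J] [IsSimpleGroup J] (hna : ¬ IsMulCommutative J)
    (T : Sylow 2 J) (hT : ∀ x ∈ (T : Subgroup J), ∀ y ∈ (T : Subgroup J), x * y = y * x) {z : J}
    (hz : z ∈ (T : Subgroup J)) (hz1 : z ≠ 1) :
    ∃ s ∈ normalizer ((T : Subgroup J) : Set J), ¬ 2 ∣ orderOf s ∧ s * z ≠ z * s := by
  have : Fact (Nat.Prime 2) := ⟨Nat.prime_two⟩
  by_contra hcon
  push Not at hcon
  apply hz1
  refine SmallSimple.SylowEight.eq_one_of_forall_normalizer hna T hT z hz (fun n hn => ?_)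
  -- `n = n₂ n₂'`
  obtain ⟨m, hm⟩ := exists_odd_pow n
  have h1 := hcon _ (pow_mem hn _) hm
  -- the subgroup of the elements of the normalizer commuting with `z`
  by_contra hne
  -- the 2-part
  set a := orderOf (n ^ 2 ^ m) with ha
  have h2 : (n ^ a) ^ 2 ^ m = 1 := by
    rw [← pow_mul, mul_comm, pow_mul, pow_orderOf_eq_one]
  have h3 : n ^ a ∈ (T : Subgroup J) := by
    have h4 : n ^ a ∈ normalizer ((T : Subgroup J) : Set J) := pow_mem hn _
    have h5 : IsPGroup 2 (zpowers (n ^ a)) := by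
      rintro ⟨w, hw⟩
      obtain ⟨i, rfl⟩ := mem_zpowers_iff.1 hw
      refine ⟨m, Subtype.ext ?_⟩
      change ((n ^ a) ^ i) ^ 2 ^ m = 1
      rw [← zpow_natCast, ← zpow_mul, mul_comm, zpow_mul, zpow_natCast, h2, one_zpow]
    have h6 : IsPGroup 2 (zpowers (n ^ a) ⊔ (T : Subgroup J) : Subgroup J) :=
      h5.to_sup_of_normal_right' T.isPGroup' (by rwa [zpowers_le])
    have h7 := T.is_maximal' h6 le_sup_right
    rw [← h7]
    exact mem_sup_left (mem_zpowers _)
  have h4 : n ^ a * z = z * n ^ a := hT _ h3 z hz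
  have h5 : (2 ^ m).Coprime a := Nat.Coprime.pow_left _ ((Nat.Prime.coprime_iff_not_dvd Nat.prime_two).2 hm)
  apply hne
  have h6 : n ∈ centralizer ({z} : Set J) := by
    have h7 : n = (n ^ 2 ^ m) ^ (Nat.gcdA (2 ^ m) a) * (n ^ a) ^ (Nat.gcdB (2 ^ m) a) := by
      have h8 : (1 : ℤ) = (2 ^ m : ℕ) * Nat.gcdA (2 ^ m) a + a * Nat.gcdB (2 ^ m) a := by
        rw [← Nat.gcd_eq_gcd_ab, h5]; rfl
      calc n = n ^ (1 : ℤ) := (zpow_one n).symm
        _ = _ := by
          rw [h8, zpow_add, zpow_mul, zpow_mul, zpow_natCast, zpow_natCast]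
    rw [h7]
    exact mul_mem (zpow_mem (mem_centralizer_singleton_iff.2 h1) _)
      (zpow_mem (mem_centralizer_singleton_iff.2 h4) _)
  exact mem_centralizer_singleton_iff.1 h6

/-- **Claim E.** -/
theorem claimE {S : Subgroup G} [hSn : S.Normal] [IsSimpleGroup S] (hna : ¬ ∀ a b : S, a * b = b * a)
    (P : Sylow 2 G) (hT : ∀ x ∈ S, x ∈ (P : Subgroup G) → x * x = 1)
    (hconj : ∀ x ∈ S, ∀ y ∈ S, orderOf x = 2 → orderOf y = 2 → ∃ g : G, g * x * g⁻¹ = y)
    (hdvd : 2 ∣ Nat.card S)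
    (ha : ∀ x ∈ (P : Subgroup G), ∀ y ∈ (P : Subgroup G), (∃ g : G, g * x * g⁻¹ = y) →
      ∃ n ∈ Subgroup.normalizer ((P : Subgroup G) : Set G), n * x * n⁻¹ = y)
    (hnil : ∀ x : G, orderOf x = 2 → HasNormalPComplement 2 (centralizer ({x} : Set G))) :
    IsElementaryAbelian 2 (P : Subgroup G) ∧
      ∀ x ∈ (P : Subgroup G), ∀ y ∈ (P : Subgroup G), x ≠ 1 → y ≠ 1 → ∃ g : G, g * x * g⁻¹ = y := by
  classical
  have : Fact (Nat.Prime 2) := ⟨Nat.prime_two⟩
  have ho2 : ∀ x : G, x * x = 1 → x ≠ 1 → orderOf x = 2 := fun x hx hx1 =>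
    orderOf_eq_prime (by rw [pow_two, hx]) hx1
  -- it suffices to show `P ≤ S`
  suffices hPS : (P : Subgroup G) ≤ S by
    have h1 : ∀ x ∈ (P : Subgroup G), x * x = 1 := fun x hx => hT x (hPS hx) hx
    refine ⟨⟨⟨⟨?_⟩⟩, fun a ha' => by rw [pow_two]; exact h1 a ha'⟩, ?_⟩
    · rintro ⟨a, ha'⟩ ⟨b, hb'⟩
      apply Subtype.ext
      show a * b = b * a
      have h2 := h1 _ (mul_mem ha' hb')
      have h3 := h1 a ha'
      have h4 := h1 b hb'
      calc a * b = a * (a * b * (a * b)) * b := by rw [h2, mul_one]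
        _ = (a * a) * b * a * (b * b) := by group
        _ = b * a := by rw [h3, h4, one_mul, mul_one]
    · intro x hx y hy hx1 hy1
      exact hconj x (hPS hx) y (hPS hy) (ho2 x (h1 x hx) hx1) (ho2 y (h1 y hy) hy1)
  -- the Sylow subgroup of `S`
  set T : Sylow 2 S := (Lib.SylowNormalInf.isPGroup_subgroupOf P S).toSylow
    (Lib.SylowNormalInf.not_dvd_relIndex P S) with hTdef
  have hTmem : ∀ x : S, x ∈ (T : Subgroup S) ↔ (x : G) ∈ (P : Subgroup G) := fun x => Iff.rfl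
  have hTcomm : ∀ x ∈ (T : Subgroup S), ∀ y ∈ (T : Subgroup S), x * y = y * x := by
    have h1 : ∀ x ∈ (T : Subgroup S), x * x = 1 := fun x hx => Subtype.ext (hT x x.2 hx)
    intro a ha' b hb'
    have h2 := h1 _ (mul_mem ha' hb')
    have h3 := h1 a ha'
    have h4 := h1 b hb'
    calc a * b = a * (a * b * (a * b)) * b := by rw [h2, mul_one]
      _ = (a * a) * b * a * (b * b) := by group
      _ = b * a := by rw [h3, h4, one_mul, mul_one]
  have hTne : (P : Subgroup G) ⊓ S ≠ ⊥ := by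
    intro h
    have h1 : (T : Subgroup S) = ⊥ := by
      rw [eq_bot_iff]
      intro x hx
      have h2 : (x : G) ∈ (P : Subgroup G) ⊓ S := ⟨hx, x.2⟩
      rw [h, mem_bot] at h2
      exact mem_bot.2 (Subtype.ext h2)
    exact T.ne_bot_of_dvd_card hdvd h1
  -- a central element
  obtain ⟨z, hzT, hz1, hzc⟩ := Characters.CNBasic.exists_mem_center_of_normal (p := 2)
    (P : Subgroup G) P.isPGroup' ((P : Subgroup G) ⊓ S) (P.isPGroup'.to_le inf_le_left) hTne
    (fun t ht d hd => ⟨(P : Subgroup G).mul_mem ((P : Subgroup G).mul_mem ht hd.1)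
      ((P : Subgroup G).inv_mem ht), hSn.conj_mem d hd.2 t⟩)
  -- all of `T` is central in `P`
  have hTc : ∀ t ∈ (P : Subgroup G), t ∈ S → ∀ r ∈ (P : Subgroup G), r * t = t * r := by
    intro t ht htS r hr
    by_cases ht1 : t = 1
    · rw [ht1, mul_one, one_mul]
    obtain ⟨n, hn, hnt⟩ := ha z hzT.1 t ht (hconj z hzT.2 t htS (ho2 z (hT z hzT.2 hzT.1) hz1)
      (ho2 t (hT t htS ht) ht1))
    have h1 : n⁻¹ * r * n ∈ (P : Subgroup G) := by
      have := (mem_normalizer_iff.1 (inv_mem hn) r).1 hr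
      rwa [inv_inv] at this
    have h2 := hzc _ h1
    rw [← hnt]
    calc r * (n * z * n⁻¹) = n * ((n⁻¹ * r * n) * z) * n⁻¹ := by group
      _ = n * (z * (n⁻¹ * r * n)) * n⁻¹ := by rw [h2]
      _ = n * z * n⁻¹ * r := by group
  -- an element of odd order acting nontrivially
  obtain ⟨s, hs, hs2, hsz⟩ := exists_odd_normalizer (fun h => hna (fun a b => h.1.1 a b)) T hTcomm
    (z := ⟨z, hzT.2⟩) hzT.1 (fun h => hz1 (congrArg Subtype.val h))
  have hsz' : (s : G) * z ≠ z * s := fun h => hsz (Subtype.ext h)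
  have hsT : ∀ t ∈ (P : Subgroup G), t ∈ S → (s : G) * t * (s : G)⁻¹ ∈ (P : Subgroup G) := by
    intro t ht htS
    exact (mem_normalizer_iff.1 hs ⟨t, htS⟩).1 ht
  have hsT' : ∀ t ∈ (P : Subgroup G), t ∈ S → (s : G)⁻¹ * t * (s : G) ∈ (P : Subgroup G) := by
    intro t ht htS
    have h1 := (mem_normalizer_iff.1 (inv_mem hs) ⟨t, htS⟩).1 ht
    rw [inv_inv] at h1
    exact h1
  have hzn : HasNormalPComplement 2 (centralizer ({z} : Set G)) :=
    hnil z (ho2 z (hT z hzT.2 hzT.1) hz1)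
  -- the centralizer of `T`
  set C : Subgroup G := centralizer (((P : Subgroup G) ⊓ S : Subgroup G) : Set G) with hC
  have hPC : (P : Subgroup G) ≤ C := by
    intro r hr
    rw [hC, mem_centralizer_iff]
    intro t ht
    exact (hTc t ht.1 ht.2 r hr).symm
  have hCn : HasNormalPComplement 2 C := by
    refine Transfer.PNilpotentBasic.hnc_of_le ?_ hzn
    intro c hc
    rw [mem_centralizer_singleton_iff]
    exact (mem_centralizer_iff.1 hc z hzT).symm
  have hsC : ∀ c ∈ C, (s : G) * c * (s : G)⁻¹ ∈ C := by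
    intro c hc
    rw [hC, mem_centralizer_iff]
    intro t ht
    have h1 := mem_centralizer_iff.1 hc ((s : G)⁻¹ * t * s)
      ⟨hsT' t ht.1 ht.2, by
        have := hSn.conj_mem t ht.2 (s : G)⁻¹
        rwa [inv_inv] at this⟩
    calc t * (s * c * (s : G)⁻¹) = s * (((s : G)⁻¹ * t * s) * c) * (s : G)⁻¹ := by group
      _ = s * (c * ((s : G)⁻¹ * t * s)) * (s : G)⁻¹ := by rw [h1]
      _ = s * c * (s : G)⁻¹ * t := by group
  -- `k s` normalizes `P` for an odd order element `k` of `C`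
  obtain ⟨k, hkC, hkn⟩ : ∃ k : C, k ∈ pPrimeCore 2 C ∧ (k : G) * s ∈ normalizer ((P : Subgroup G) : Set G) := by
    have hidx := Red.index_pPrimeCore hCn
    have hnorm : (pPrimeCore 2 C).Normal := Lib.Cores.pPrimeCore_normal 2
    -- Sylow subgroups of `C`
    set P₁ : Sylow 2 C := P.subtype hPC with hP₁
    set sP : Sylow 2 G := MulAut.conj (s : G) • P with hsP
    have hsPC : (sP : Subgroup G) ≤ C := by
      intro x hx
      rw [hsP, Sylow.pointwise_smul_def, Subgroup.mem_pointwise_smul_iff_inv_smul_mem, ← map_inv,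
        MulAut.smul_def, MulAut.conj_apply, inv_inv] at hx
      have h1 := hsC _ (hPC hx)
      have h2 : (s : G) * ((s : G)⁻¹ * x * s) * (s : G)⁻¹ = x := by group
      rwa [h2] at h1
    set P₂ : Sylow 2 C := sP.subtype hsPC with hP₂
    obtain ⟨c, hc⟩ := MulAction.exists_smul_eq C P₂ P₁
    -- `C = P O(C)`
    have h1 : (P₁ : Subgroup C) ⊔ pPrimeCore 2 C = ⊤ := by
      rw [← Subgroup.index_eq_one]
      have h2 : ((P₁ : Subgroup C) ⊔ pPrimeCore 2 C).index ∣ (pPrimeCore 2 C).index :=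
        Subgroup.index_dvd_of_le le_sup_right
      have h3 : ((P₁ : Subgroup C) ⊔ pPrimeCore 2 C).index ∣ (P₁ : Subgroup C).index :=
        Subgroup.index_dvd_of_le le_sup_left
      obtain ⟨j, hj⟩ := hidx
      rw [hj] at h2
      have h4 : (2 ^ j).Coprime (P₁ : Subgroup C).index :=
        Nat.Coprime.pow_left _ ((Nat.Prime.coprime_iff_not_dvd Nat.prime_two).2 P₁.not_dvd_index)
      exact Nat.eq_one_of_dvd_coprimes h4 h2 h3
    have h2 : c ∈ (P₁ : Subgroup C) ⊔ pPrimeCore 2 C := by rw [h1]; exact mem_top _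
    obtain ⟨r, hr, k, hk, hrk⟩ := mem_sup_of_normal_right.1 h2
    refine ⟨k, hk, normalizer_of_finite (fun x hx => ?_)⟩
    have h3 : (s : G) * x * (s : G)⁻¹ ∈ (sP : Subgroup G) := by
      rw [hsP, Sylow.pointwise_smul_def, Subgroup.mem_pointwise_smul_iff_inv_smul_mem, ← map_inv,
        MulAut.smul_def, MulAut.conj_apply, inv_inv]
      have : (s : G)⁻¹ * ((s : G) * x * (s : G)⁻¹) * s = x := by group
      rwa [this]
    have h4 : c * (⟨(s : G) * x * (s : G)⁻¹, hsPC h3⟩ : C) * c⁻¹ ∈ (P₁ : Subgroup C) := by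
      rw [← hc, Sylow.coe_subgroup_smul, Subgroup.mem_pointwise_smul_iff_inv_smul_mem, ← map_inv,
        MulAut.smul_def, MulAut.conj_apply, inv_inv]
      have : c⁻¹ * (c * (⟨(s : G) * x * (s : G)⁻¹, hsPC h3⟩ : C) * c⁻¹) * c =
        ⟨(s : G) * x * (s : G)⁻¹, hsPC h3⟩ := by group
      rw [this]
      exact h3
    have h5 : (c : G) * ((s : G) * x * (s : G)⁻¹) * (c : G)⁻¹ ∈ (P : Subgroup G) := h4
    have h6 : (r : G) ∈ (P : Subgroup G) := hr
    have h7 : (c : G) = r * k := by rw [← hrk]; rfl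
    rw [h7] at h5
    have h8 := mul_mem (mul_mem (inv_mem h6) h5) h6
    have h9 : (r : G)⁻¹ * ((r : G) * k * ((s : G) * x * (s : G)⁻¹) * ((r : G) * k)⁻¹) * r =
        k * s * x * (k * s : G)⁻¹ := by group
    rwa [h9] at h8
  set n : G := k * s with hn
  have hkT : ∀ t ∈ (P : Subgroup G), t ∈ S → (k : G) * t = t * k := by
    intro t ht htS
    exact (mem_centralizer_iff.1 k.2 t ⟨ht, htS⟩).symm
  -- `n` acts on `T` as `s`
  have hnT : ∀ t ∈ (P : Subgroup G), t ∈ S → n * t * n⁻¹ = s * t * (s : G)⁻¹ := by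
    intro t ht htS
    have h1 := hkT _ (hsT t ht htS) (hSn.conj_mem t htS s)
    calc n * t * n⁻¹ = k * ((s : G) * t * (s : G)⁻¹) * (k : G)⁻¹ := by rw [hn]; group
      _ = _ := by rw [h1, mul_inv_cancel_right]
  -- `[n, P] ≤ T`
  have hnP : ∀ r ∈ (P : Subgroup G), n * r * n⁻¹ * r⁻¹ ∈ S := by
    intro r hr
    have h1 : n * r * n⁻¹ * r⁻¹ ∈ (P : Subgroup G) :=
      mul_mem ((mem_normalizer_iff.1 hkn r).1 hr) (inv_mem hr)
    obtain ⟨j, hj⟩ := P.isPGroup' ⟨_, h1⟩
    have hj' : (n * r * n⁻¹ * r⁻¹) ^ 2 ^ j = 1 := congrArg Subtype.val hj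
    set q := QuotientGroup.mk' S with hq
    have hqs : q (s : G) = 1 := (QuotientGroup.eq_one_iff _).2 s.2
    have h2 : q (n * r * n⁻¹ * r⁻¹) = q ((k : G) * r * (k : G)⁻¹ * r⁻¹) := by
      simp only [map_mul, map_inv, hn, hqs, mul_one]
    -- the order of the commutator of `k` and `r` is odd
    have hnorm : (pPrimeCore 2 C).Normal := Lib.Cores.pPrimeCore_normal 2
    have h3 : k * (⟨r, hPC hr⟩ : C) * k⁻¹ * (⟨r, hPC hr⟩ : C)⁻¹ ∈ pPrimeCore 2 C := by
      have h4 : k * (⟨r, hPC hr⟩ : C) * k⁻¹ * (⟨r, hPC hr⟩ : C)⁻¹ =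
        k * ((⟨r, hPC hr⟩ : C) * k⁻¹ * (⟨r, hPC hr⟩ : C)⁻¹) := by group
      rw [h4]
      exact mul_mem hkC (hnorm.conj_mem _ (inv_mem hkC) _)
    have h4 := (OddCore.mem_pPrimeCore_iff hCn _).1 h3
    rw [← Subgroup.orderOf_coe] at h4
    have h5 : orderOf (q (n * r * n⁻¹ * r⁻¹)) ∣ 2 ^ j := by
      apply orderOf_dvd_of_pow_eq_one
      rw [← map_pow, hj', map_one]
    have h6 : orderOf (q (n * r * n⁻¹ * r⁻¹)) ∣ orderOf ((k : G) * r * (k : G)⁻¹ * r⁻¹) := by
      rw [h2]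
      exact orderOf_map_dvd q _
    have h7 : orderOf (q (n * r * n⁻¹ * r⁻¹)) = 1 :=
      Nat.eq_one_of_dvd_coprimes (Nat.Coprime.pow_left _ ((Nat.Prime.coprime_iff_not_dvd Nat.prime_two).2 h4))
        h5 h6
    exact (QuotientGroup.eq_one_iff _).1 (orderOf_eq_one_iff.1 h7)
  -- the odd part of `n`
  obtain ⟨m, hm⟩ := exists_odd_pow n
  set v : G := n ^ 2 ^ m with hv
  have hvN : v ∈ normalizer ((P : Subgroup G) : Set G) := pow_mem hkn _
  have hvT : ∀ t ∈ (P : Subgroup G), t ∈ S → v * t * v⁻¹ = (s : G) ^ 2 ^ m * t * ((s : G) ^ 2 ^ m)⁻¹ := by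
    have h1 : ∀ i : ℕ, ∀ t ∈ (P : Subgroup G), t ∈ S → n ^ i * t * (n ^ i)⁻¹ = (s : G) ^ i * t * ((s : G) ^ i)⁻¹ := by
      intro i
      induction i with
      | zero => intro t _ _; rw [pow_zero, pow_zero]
      | succ i ih =>
        intro t ht htS
        rw [pow_succ, pow_succ]
        calc n ^ i * n * t * (n ^ i * n)⁻¹ = n ^ i * (n * t * n⁻¹) * (n ^ i)⁻¹ := by group
          _ = n ^ i * (s * t * (s : G)⁻¹) * (n ^ i)⁻¹ := by rw [hnT t ht htS]
          _ = (s : G) ^ i * (s * t * (s : G)⁻¹) * ((s : G) ^ i)⁻¹ := ih _ (hsT t ht htS) (hSn.conj_mem t htS s)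
          _ = _ := by group
    exact h1 _
  have hvz : v * z ≠ z * v := by
    intro h
    have h1 := hvT z hzT.1 hzT.2
    rw [h, mul_inv_cancel_right] at h1
    apply hsz'
    have h2 : (s : G) ^ 2 ^ m ∈ centralizer ({z} : Set G) :=
      mem_centralizer_singleton_iff.2 (eq_mul_inv_iff_mul_eq.1 h1).symm
    have h3 : ¬ 2 ∣ orderOf (s : G) := by rwa [Subgroup.orderOf_coe]
    have h4 : (s : G) ∈ centralizer ({z} : Set G) :=
      (zpowers_le.2 h2) (mem_zpowers_pow h3 m)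
    exact mem_centralizer_singleton_iff.1 h4
  have hvP : ∀ r ∈ (P : Subgroup G), v * r * v⁻¹ * r⁻¹ ∈ S := by
    intro r hr
    have h1 : ∀ i : ℕ, ∀ r ∈ (P : Subgroup G), n ^ i * r * (n ^ i)⁻¹ * r⁻¹ ∈ S := by
      intro i
      induction i with
      | zero => intro r _; rw [pow_zero]; simp
      | succ i ih =>
        intro r hr
        have h2 : n * r * n⁻¹ ∈ (P : Subgroup G) := (mem_normalizer_iff.1 hkn r).1 hr
        have h3 : n ^ (i + 1) * r * (n ^ (i + 1))⁻¹ * r⁻¹ =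
            (n ^ i * (n * r * n⁻¹) * (n ^ i)⁻¹ * (n * r * n⁻¹)⁻¹) * (n * r * n⁻¹ * r⁻¹) := by
          rw [pow_succ]; group
        rw [h3]
        exact mul_mem (ih _ h2) (hnP r hr)
    exact h1 _ r hr
  -- no involution of `P` commutes with `v`
  have hnov : ∀ r ∈ (P : Subgroup G), v * r = r * v → r = 1 := by
    intro r hr hvr
    by_contra hr1
    obtain ⟨j, hj⟩ : ∃ j, orderOf r = 2 ^ j := by
      obtain ⟨j, hj⟩ := (P.isPGroup'.exists_orderOf_eq_pow : ∀ g : (P : Subgroup G), _) ⟨r, hr⟩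
      rw [Subgroup.orderOf_mk] at hj
      exact ⟨j, hj⟩
    obtain ⟨i, rfl⟩ : ∃ i, j = i + 1 := by
      cases j with
      | zero =>
        rw [pow_zero] at hj
        exact absurd (orderOf_eq_one_iff.1 hj) hr1
      | succ i => exact ⟨i, rfl⟩
    set u : G := r ^ 2 ^ i with hu
    have huo : orderOf u = 2 := by
      rw [hu, orderOf_pow_of_dvd (pow_ne_zero _ (by norm_num))
        (by rw [hj]; exact pow_dvd_pow _ (Nat.le_succ _)), hj, pow_succ,
        Nat.mul_div_cancel_left _ (pow_pos (by norm_num) _)]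
    have huP : u ∈ (P : Subgroup G) := pow_mem hr _
    have huv : v * u = u * v := (Commute.pow_right (hvr : Commute v r) _).eq
    have hun := hnil u huo
    have h1 : v ∈ centralizerPPrimeCore 2 u := (OddCore.mem_core_iff hun v).2 ⟨huv, hm⟩
    have h2 : u * z = z * u := hzc u huP
    have h3 : v * z * v⁻¹ * z⁻¹ ∈ (P : Subgroup G) := mul_mem ((mem_normalizer_iff.1 hvN z).1 hzT.1)
      (inv_mem hzT.1)
    obtain ⟨j', hj'⟩ := P.isPGroup' ⟨_, h3⟩
    exact hvz (OddCore.comm_of_pelt hun h1 h2.symm (k := j') (congrArg Subtype.val hj'))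
  -- the map `r ↦ [v, r]` is injective from `P` to `T`
  intro r hr
  let φ : ↥(P : Subgroup G) → ↥((P : Subgroup G) ⊓ S : Subgroup G) := fun r =>
    ⟨v * r * v⁻¹ * (r : G)⁻¹,
      (P : Subgroup G).mul_mem ((mem_normalizer_iff.1 hvN r).1 r.2) ((P : Subgroup G).inv_mem r.2), hvP r r.2⟩
  have hφ : Function.Injective φ := by
    intro r r' h
    have h1 : v * (r : G) * v⁻¹ * (r : G)⁻¹ = v * (r' : G) * v⁻¹ * (r' : G)⁻¹ := congrArg Subtype.val h
    have h2 : v * ((r' : G)⁻¹ * r) = ((r' : G)⁻¹ * r) * v := by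
      have h3 : v * ((r' : G)⁻¹ * r) = (v * (r' : G) * v⁻¹)⁻¹ * (v * (r : G) * v⁻¹ * (r : G)⁻¹) * r * v := by
        group
      rw [h3, h1]
      group
    have h3 := hnov _ (mul_mem (inv_mem r'.2) r.2) h2
    exact Subtype.ext (inv_mul_eq_one.1 h3).symm
  have h1 : Nat.card (P : Subgroup G) ≤ Nat.card ((P : Subgroup G) ⊓ S : Subgroup G) :=
    Nat.card_le_card_of_injective φ hφ
  have h2 : (P : Subgroup G) ⊓ S = (P : Subgroup G) := Subgroup.eq_of_le_of_card_ge inf_le_left h1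
  have h3 : r ∈ (P : Subgroup G) ⊓ S := by rw [h2]; exact hr
  exact h3.2

end Cfsg.Agent.H267.ClaimE
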