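import Mathlib
import Cfsg.Agent.Walter.TypeSylow
import Cfsg.Agent.WeakTI.PslTwo
import Cfsg.Agent.SmallSimple.SylowEight
import Cfsg.Agent.ClassicalGeometry.SLTwoFour

/-!
# Simple groups with abelian Sylow 2-subgroups: elementary abelian Sylow 2-subgroups, one class of involutions

`of_wType`: for the simple groups in the list of Walter's theorem, every 2-element has square `1`, and the involutions
form one conjugacy class.
-/

set_option autoImplicit false

namespace Cfsg.Agent.H267.EvenClass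

open Cfsg Subgroup Cfsg.Agent.Walter.Types

/-- The two properties. -/
def Good (K : Type*) [Group K] : Prop :=
  (∀ (x : K) (k : ℕ), x ^ 2 ^ k = 1 → x * x = 1) ∧
    ∀ x y : K, orderOf x = 2 → orderOf y = 2 → ∃ g : K, g * x * g⁻¹ = y

theorem of_psl_even {K : Type*} [Group K] {F : Type*} [Field F] [Fintype F] {n : ℕ}
    (hF : Fintype.card F = 2 ^ n) (e : K ≃* Matrix.ProjectiveSpecialLinearGroup (Fin 2) F) : Good K := by
  have : Fact (Nat.Prime 2) := ⟨Nat.prime_two⟩
  have hch : CharP F 2 := by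
    obtain ⟨p, hp⟩ := CharP.exists F
    obtain ⟨m, hpp, hm⟩ := FiniteField.card F p
    rw [hF] at hm
    have h1 : p ∣ 2 ^ n := by
      rw [hm]
      exact dvd_pow_self p m.2.ne'
    have h2 : p = 2 := (Nat.prime_dvd_prime_iff_eq hpp Nat.prime_two).1 (hpp.dvd_of_dvd_pow h1)
    rwa [h2] at hp
  refine ⟨fun x k hx => WeakTI.PslTwo.mul_self e hx, fun x y hx hy => ?_⟩
  have h1 : ∀ x : K, orderOf x = 2 → x * x = 1 ∧ x ≠ 1 := by
    intro x hx
    refine ⟨by rw [← pow_two, ← hx, pow_orderOf_eq_one], fun h => ?_⟩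
    rw [h, orderOf_one] at hx
    exact absurd hx (by norm_num)
  exact WeakTI.PslTwo.exists_conj e (h1 x hx).1 (h1 x hx).2 (h1 y hy).1 (h1 y hy).2

/-- A 2-element lies in a Sylow subgroup. -/
theorem exists_sylow {K : Type*} [Group K] {x : K} {k : ℕ} (hx : x ^ 2 ^ k = 1) :
    ∃ T : Sylow 2 K, x ∈ (T : Subgroup K) := by
  have h5 : IsPGroup 2 (zpowers x) := by
    rintro ⟨w, hw⟩
    obtain ⟨i, rfl⟩ := mem_zpowers_iff.1 hw
    refine ⟨k, Subtype.ext ?_⟩
    change (x ^ i) ^ 2 ^ k = 1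
    rw [← zpow_natCast, ← zpow_mul, mul_comm, zpow_mul, zpow_natCast, hx, one_zpow]
  obtain ⟨T, hT⟩ := h5.exists_le_sylow
  exact ⟨T, hT (mem_zpowers x)⟩

/-- In a simple group with Sylow 2-subgroups of order 4, these are elementary abelian. -/
theorem sq_of_card_four {K : Type*} [Group K] [Finite K] [IsSimpleGroup K] (hna : ¬ IsMulCommutative K)
    (T : Sylow 2 K) (hT : Nat.card (T : Subgroup K) = 4) (x : K) (hx : x ∈ (T : Subgroup K)) : x * x = 1 := by
  have : Fact (Nat.Prime 2) := ⟨Nat.prime_two⟩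
  by_contra hne
  have hcomm : ∀ a ∈ (T : Subgroup K), ∀ b ∈ (T : Subgroup K), a * b = b * a := by
    intro a ha b hb
    have h2 : IsMulCommutative (T : Subgroup K) :=
      IsPGroup.isMulCommutative_of_card_eq_prime_sq (p := 2) (by rw [hT]; norm_num)
    exact congrArg Subtype.val (h2.1.1 ⟨a, ha⟩ ⟨b, hb⟩)
  have h4 : ∀ y ∈ (T : Subgroup K), y * y * (y * y) = 1 := by
    intro y hy
    have h1 : (⟨y, hy⟩ : (T : Subgroup K)) ^ 4 = 1 := by
      rw [← hT]; exact pow_card_eq_one'
    have h2 : y ^ 4 = 1 := congrArg Subtype.val h1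
    rw [← pow_two, ← pow_two, ← pow_mul]
    exact h2
  -- all elements of `T` are `1, x, x^2, x^3`
  have hx1 : x ≠ 1 := fun h => hne (by rw [h, one_mul])
  have hxo : orderOf (⟨x, hx⟩ : (T : Subgroup K)) = 4 := by
    have h1 : orderOf (⟨x, hx⟩ : (T : Subgroup K)) ∣ 2 ^ 2 := by
      rw [show (2 ^ 2 : ℕ) = Nat.card (T : Subgroup K) by rw [hT]; norm_num]
      exact orderOf_dvd_natCard _
    obtain ⟨i, hi, h2⟩ := (Nat.dvd_prime_pow Nat.prime_two).1 h1
    have h3 : i = 2 := by
      by_contra h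
      have h5 : i = 0 ∨ i = 1 := by omega
      rcases h5 with rfl | rfl
      · rw [pow_zero, orderOf_eq_one_iff] at h2
        exact hx1 (congrArg Subtype.val h2)
      · rw [pow_one] at h2
        have h6 := pow_orderOf_eq_one (⟨x, hx⟩ : (T : Subgroup K))
        rw [h2, pow_two] at h6
        exact hne (congrArg Subtype.val h6)
    rw [h2, h3]; norm_num
  have hgen : ∀ y ∈ (T : Subgroup K), ∃ i : ℕ, x ^ i = y := by
    intro y hy
    have h1 : zpowers (⟨x, hx⟩ : (T : Subgroup K)) = ⊤ := by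
      apply Subgroup.eq_top_of_card_eq
      rw [Nat.card_zpowers, hxo, hT]
    have h2 : (⟨y, hy⟩ : (T : Subgroup K)) ∈ zpowers (⟨x, hx⟩ : (T : Subgroup K)) := by
      rw [h1]; exact mem_top _
    obtain ⟨i, hi⟩ := mem_powers_iff_mem_zpowers.2 h2
    exact ⟨i, congrArg Subtype.val hi⟩
  -- the square of `x` is centralized by the normalizer
  refine hne (SmallSimple.SylowEight.eq_one_of_forall_normalizer hna T hcomm _ (mul_mem hx hx) (fun n hn => ?_))
  have h1 : n * x * n⁻¹ ∈ (T : Subgroup K) := (mem_normalizer_iff.1 hn x).1 hx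
  obtain ⟨i, hi⟩ := hgen _ h1
  have h2 : n * (x * x) * n⁻¹ = x ^ i * x ^ i := by
    rw [hi]; group
  have h3 : x ^ i * x ^ i = (x * x) ^ i := by
    rw [← pow_two, ← pow_mul, mul_comm, pow_mul, pow_two]
  rw [h3] at h2
  have h5 : x * x * (x * x) = 1 := h4 x hx
  -- `i` is odd
  rcases Nat.even_or_odd' i with ⟨j, rfl | rfl⟩
  · exfalso
    rw [pow_mul, pow_two, h5, one_pow] at h2
    apply hne
    calc x * x = n⁻¹ * (n * (x * x) * n⁻¹) * n := by group
      _ = 1 := by rw [h2]; group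
  · rw [pow_succ, pow_mul, pow_two, h5, one_pow, one_mul] at h2
    exact mul_inv_eq_iff_eq_mul.1 h2

theorem of_wType {K : Type*} [Group K] [Finite K] [IsSimpleGroup K] (hna : ¬ IsMulCommutative K)
    (h : WType K) : Good K := by
  have : Fact (Nat.Prime 2) := ⟨Nat.prime_two⟩
  rcases h with ⟨F, i1, i2, n, -, hF, ⟨e⟩⟩ | ⟨F, i1, i2, hF, -, ⟨e⟩⟩ | h
  · exact of_psl_even hF e
  · refine ⟨fun x k hx => ?_, fun x y hx hy => ?_⟩
    · obtain ⟨T, hT⟩ := exists_sylow hx
      exact sq_of_card_four hna T (Walter.TypeSylow.card_sylow_odd hF e T) x hT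
    · have h1 := ClassicalGeometry.SLTwoFour.psl_isConj (F := F)
        (by rw [Nat.odd_iff]; omega) (e x) (e y) (by rw [MulEquiv.orderOf_eq, hx]) (by rw [MulEquiv.orderOf_eq, hy])
      obtain ⟨g, hg⟩ := isConj_iff.1 h1
      refine ⟨e.symm g, e.injective ?_⟩
      rw [map_mul, map_mul, map_inv, MulEquiv.apply_symm_apply, hg]
  · refine ⟨fun x k hx => ?_, fun x y hx hy => ?_⟩
    · obtain ⟨T, hT⟩ := exists_sylow hx
      exact (Walter.TypeSylow.card_sylow_JR h T).2 x hT
    · obtain ⟨T⟩ : Nonempty (Sylow 2 K) := inferInstance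
      have h1 := (Walter.TypeSylow.card_sylow_JR h T).1
      have h8 : 8 ∣ Nat.card K := by
        rw [← h1]; exact Subgroup.card_subgroup_dvd_card _
      have h16 : ¬ 16 ∣ Nat.card K := by
        intro h16
        rw [← (T : Subgroup K).card_mul_index, h1] at h16
        have h2 : 2 ∣ (T : Subgroup K).index := by
          obtain ⟨c, hc⟩ := h16
          exact ⟨c, by omega⟩
        exact T.not_dvd_index h2
      exact isConj_iff.1 (SmallSimple.SylowEight.isConj_of_card_sylow_eight hna h8 h16 x y hx hy)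

end Cfsg.Agent.H267.EvenClass
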