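import Mathlib
import Cfsg.Prelude.Def_Balance
import Cfsg.Agent.H267.OddCore
import Cfsg.Agent.Lib.SylowNormalInf
import Cfsg.Agent.H246.SzInner
import Cfsg.Agent.H322.Tri.Suz
import Cfsg.Agent.H504.SzOut

/-!
# A normal Suzuki subgroup with trivial centralizer in a group with 2-nilpotent centralizers of involutions

`eq_top`: then `G` is the Suzuki group.
-/

set_option autoImplicit false

namespace Cfsg.Agent.H267.SzCase

open Cfsg Subgroup Cfsg.Agent.ThreePrime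

section rel

variable {J : Type*} [Group J] {F : Type*} [Field F] [Finite F] (R : SzRel.Rel J F)

/-- an element commuting with `D` is in the Borel subgroup -/
theorem mem_normalizer_of_comm (h8 : 8 ≤ Nat.card F) {m : J} (hm : ∀ l : Fˣ, m * R.d l = R.d l * m) :
    m ∈ Subgroup.normalizer (R.T : Set J) := by
  rcases R.bruhat m with ⟨a, b, k, rfl⟩ | ⟨a, b, c, e, k, h⟩
  · exact R.ud_mem_normalizer a b k
  exfalso
  obtain ⟨l, hl⟩ : ∃ l : Fˣ, l ≠ 1 := by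
    by_contra hcon
    push Not at hcon
    have h1 : Subsingleton Fˣ := ⟨fun x y => by rw [hcon x, hcon y]⟩
    have h2 : Nat.card Fˣ ≤ 1 := Finite.card_le_one_iff_subsingleton.2 h1
    have h3 : Nat.card Fˣ = Nat.card F - 1 := Nat.card_units F
    omega
  apply hl
  have h1 : R.d l * m * (R.d l)⁻¹ = m := by
    rw [← hm, mul_inv_cancel_right]
  set a' : F := a * l ^ 2 * (R.θ l)⁻¹ with ha'
  set b' : F := b * R.θ l with hb'
  have h2 : R.d l * R.u a b = R.u a' b' * R.d l := R.d_mul_u l a b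
  have h3 : R.d l * R.w = R.w * R.d l⁻¹ := by rw [R.w_mul_d, inv_inv]
  have h4 : R.d l⁻¹ * R.u c e = R.u (c * (l⁻¹ : Fˣ) ^ 2 * (R.θ (l⁻¹ : Fˣ))⁻¹) (e * R.θ (l⁻¹ : Fˣ)) * R.d l⁻¹ :=
    R.d_mul_u l⁻¹ c e
  set c' : F := c * (l⁻¹ : Fˣ) ^ 2 * (R.θ (l⁻¹ : Fˣ))⁻¹ with hc'
  set e' : F := e * R.θ (l⁻¹ : Fˣ) with he'
  have h5 : R.d l * m * (R.d l)⁻¹ = R.u a' b' * R.w * (R.u c' e' * R.d (l⁻¹ * k * l⁻¹)) := by
    calc R.d l * m * (R.d l)⁻¹ = (R.d l * R.u a b) * R.w * (R.u c e * R.d k) * (R.d l)⁻¹ := by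
          rw [h]; group
      _ = R.u a' b' * (R.d l * R.w) * (R.u c e * R.d k) * (R.d l)⁻¹ := by rw [h2]; group
      _ = R.u a' b' * R.w * (R.d l⁻¹ * R.u c e) * R.d k * (R.d l)⁻¹ := by rw [h3]; group
      _ = R.u a' b' * R.w * (R.u c' e' * (R.d l⁻¹ * R.d k * R.d l⁻¹)) := by
          rw [h4, R.d_inv]; simp only [mul_assoc]
      _ = _ := by rw [R.d_mul, R.d_mul]
  rw [h1, h] at h5
  -- uniqueness of the Bruhat decomposition
  obtain ⟨a₁, b₁, h6⟩ : ∃ a₁ b₁, (R.u a' b')⁻¹ * R.u a b = R.u a₁ b₁ := by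
    rw [R.u_inv, R.u_mul]
    exact ⟨_, _, rfl⟩
  have h7 : R.w * R.u a₁ b₁ * R.w = (R.u c' e' * R.d (l⁻¹ * k * l⁻¹)) * (R.u c e * R.d k)⁻¹ := by
    rw [← h6]
    have h8 : R.w * ((R.u a' b')⁻¹ * R.u a b) * R.w =
        R.w * (R.u a' b')⁻¹ * (R.u a b * R.w * (R.u c e * R.d k)) * (R.u c e * R.d k)⁻¹ := by group
    rw [h8, h5]
    have h9 : R.w * (R.u a' b')⁻¹ * (R.u a' b' * R.w * (R.u c' e' * R.d (l⁻¹ * k * l⁻¹))) =
        (R.w * R.w) * (R.u c' e' * R.d (l⁻¹ * k * l⁻¹)) := by group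
    rw [h9, R.w_mul_w, one_mul]
  obtain ⟨c₁, e₁, k₁, h8⟩ : ∃ c₁ e₁ k₁, (R.u c' e' * R.d (l⁻¹ * k * l⁻¹)) * (R.u c e * R.d k)⁻¹ =
      R.u c₁ e₁ * R.d k₁ := by
    rw [_root_.mul_inv_rev, R.d_inv, R.u_inv]
    rw [R.d_mul_u k⁻¹, mul_assoc (R.u c' e'), ← mul_assoc (R.d (l⁻¹ * k * l⁻¹)), R.d_mul_u (l⁻¹ * k * l⁻¹),
      mul_assoc (R.u _ _) (R.d (l⁻¹ * k * l⁻¹)), R.d_mul, ← mul_assoc, R.u_mul]
    exact ⟨_, _, _, rfl⟩
  rw [h8] at h7
  obtain ⟨rfl, rfl⟩ := R.inter _ _ _ _ _ h7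
  rw [R.u_zero] at h6
  have h9 : R.u a b = R.u a' b' := by
    have := mul_eq_one_iff_inv_eq.1 h6
    rw [inv_inv] at this
    exact this.symm
  rw [← h9] at h5
  have h10 : R.u c e * R.d k = R.u c' e' * R.d (l⁻¹ * k * l⁻¹) := by
    exact mul_left_cancel h5
  obtain ⟨-, -, h11⟩ := R.ud_inj h10
  -- `l ^ 2 = 1`
  have h12 : l * l = 1 := by
    have h13 : l⁻¹ * k * l⁻¹ = k * (l⁻¹ * l⁻¹) := by
      rw [mul_comm l⁻¹ k, mul_assoc]
    rw [h13] at h11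
    have h14 : l⁻¹ * l⁻¹ = 1 := by
      have := (mul_eq_left.1 h11.symm)
      exact this
    rw [← mul_inv_rev, inv_eq_one] at h14
    exact h14
  have h13 : (l : F) * l = 1 := by
    have := congrArg Units.val h12
    simpa using this
  have h14 : ((l : F) - 1) * ((l : F) - 1) = 0 := by
    linear_combination h13 + (1 - (l : F)) * R.two
  have h15 : (l : F) - 1 = 0 := mul_self_eq_zero.1 h14
  exact Units.ext (sub_eq_zero.1 h15)

end rel

variable {G : Type*} [Group G] [Finite G]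

theorem le_of_isoSuzuki {S : Subgroup G} [S.Normal] (hC : centralizer (S : Set G) = ⊥)
    (hSz : Cfsg.Lie.IsoSuzuki S) {x : G} {n : ℕ} (hx : x ^ 2 ^ n = 1) : x ∈ S := by
  obtain ⟨y, hy⟩ := H246.SzInner.inner_iso hSz (MulAut.conjNormal x : MulAut S) (n := n) (by
    rw [← map_pow, hx, map_one])
  have h1 : x * (y : G)⁻¹ ∈ centralizer (S : Set G) := by
    rw [mem_centralizer_iff]
    intro s hs
    have h2 : ((MulAut.conjNormal x : MulAut S) (y⁻¹ * ⟨s, hs⟩ * y) : S) = ⟨s, hs⟩ := by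
      rw [hy, MulAut.conj_apply]
      group
    have h3 := congrArg Subtype.val h2
    rw [MulAut.conjNormal_apply] at h3
    simp only [Subgroup.coe_mul, Subgroup.coe_inv] at h3
    calc s * (x * (y : G)⁻¹) = (x * ((y : G)⁻¹ * s * y) * x⁻¹) * (x * (y : G)⁻¹) := by rw [h3]
      _ = x * (y : G)⁻¹ * s := by group
  rw [hC, mem_bot, mul_inv_eq_one] at h1
  rw [h1]
  exact y.2

theorem eq_top {S : Subgroup G} (hSn : S.Normal) (hC : centralizer (S : Set G) = ⊥)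
    (hSz : Cfsg.Lie.IsoSuzuki S)
    (hnil : ∀ x : G, orderOf x = 2 → HasNormalPComplement 2 (centralizer ({x} : Set G))) :
    S = ⊤ := by
  classical
  have : Fact (Nat.Prime 2) := ⟨Nat.prime_two⟩
  obtain ⟨T⟩ : Nonempty (Sylow 2 S) := inferInstance
  obtain ⟨F, _, _, R, h8, hT⟩ := H322.Tri.exists_rel_sylow hSz T
  -- central involutions
  have hzo : ∀ b : F, b ≠ 0 → orderOf ((R.u 0 b : S) : G) = 2 := by
    intro b hb
    rw [Subgroup.orderOf_coe]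
    refine orderOf_eq_prime ?_ (R.u_ne_one hb)
    rw [pow_two, R.u_mul_self, zero_mul, R.u_zero]
  have hzc : ∀ b : F, ∀ x ∈ R.T, x * R.u 0 b = R.u 0 b * x := by
    rintro b _ ⟨c, e, rfl⟩
    rw [R.comm_iff, map_zero, zero_mul, mul_zero]
  -- `C_S(z)` is a 2-group
  have hCS : ∀ b : F, b ≠ 0 → ∀ s : S, s * R.u 0 b = R.u 0 b * s → s ∈ R.T := by
    intro b hb s hs
    have h1 : s * R.u 0 b * s⁻¹ = R.u 0 b := by rw [hs, mul_inv_cancel_right]
    obtain ⟨a', b', k, rfl⟩ := R.norm (R.ti (R.u_mem 0 b) (R.u_ne_one hb) (by rw [h1]; exact R.u_mem 0 b))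
    have h2 : R.d k * R.u 0 b * (R.d k)⁻¹ = R.u 0 b := by
      have h3 := hzc b _ (R.u_mem a' b')
      have h4 : R.u a' b' * (R.d k * R.u 0 b) = R.u a' b' * (R.u 0 b * R.d k) := by
        calc R.u a' b' * (R.d k * R.u 0 b) = R.u a' b' * R.d k * R.u 0 b := by rw [mul_assoc]
          _ = R.u 0 b * (R.u a' b' * R.d k) := hs
          _ = (R.u 0 b * R.u a' b') * R.d k := by rw [mul_assoc]
          _ = (R.u a' b' * R.u 0 b) * R.d k := by rw [h3]
          _ = _ := by rw [mul_assoc]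
      rw [mul_left_cancel h4, mul_inv_cancel_right]
    rcases R.fpf h2 with h3 | h3
    · rw [h3, R.d_one, mul_one]
      exact R.u_mem _ _
    · exact absurd h3.2 hb
  -- the cores
  have hnz : ∀ b : F, b ≠ 0 → HasNormalPComplement 2 (centralizer ({((R.u 0 b : S) : G)} : Set G)) :=
    fun b hb => hnil _ (hzo b hb)
  set K : F → Subgroup G := fun b => centralizerPPrimeCore 2 ((R.u 0 b : S) : G) with hK
  have hKS : ∀ b : F, b ≠ 0 → ∀ k ∈ K b, k ∈ S → k = 1 := by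
    intro b hb k hk hkS
    obtain ⟨h1, h2⟩ := (OddCore.mem_core_iff (hnz b hb) k).1 hk
    have h3 := hCS b hb ⟨k, hkS⟩ (Subtype.ext h1)
    have h4 := R.pow_four h3
    have h5 : k ^ 2 ^ 2 = 1 := congrArg Subtype.val h4
    have h6 : orderOf k ∣ 2 ^ 2 := orderOf_dvd_of_pow_eq_one h5
    have h7 : orderOf k = 1 :=
      Nat.eq_one_of_dvd_coprimes (Nat.Coprime.pow_left _ ((Nat.Prime.coprime_iff_not_dvd Nat.prime_two).2 h2))
        h6 dvd_rfl
    exact orderOf_eq_one_iff.1 h7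
  have hKcomm : ∀ b : F, b ≠ 0 → ∀ k ∈ K b, ∀ s : S,
      (s : G) * k * (s : G)⁻¹ ∈ K b → k * s = s * k := by
    intro b hb k hk s hs
    have h1 : k * (s * k⁻¹ * (s : G)⁻¹) ∈ K b := mul_mem hk (by
      have h2 : (s : G) * k⁻¹ * (s : G)⁻¹ = (s * k * (s : G)⁻¹)⁻¹ := by group
      rw [h2]
      exact inv_mem hs)
    have h2 : k * (s * k⁻¹ * (s : G)⁻¹) ∈ S := by
      have h3 : k * (s * k⁻¹ * (s : G)⁻¹) = (k * s * k⁻¹) * (s : G)⁻¹ := by group
      rw [h3]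
      exact mul_mem (hSn.conj_mem _ s.2 k) (inv_mem s.2)
    have h3 := hKS b hb _ h1 h2
    have h4 : k * s * (k⁻¹ * (s : G)⁻¹) = 1 := by
      rw [← h3]; group
    rw [← _root_.mul_inv_rev] at h4
    exact mul_inv_eq_one.1 h4
  -- the core centralizes `T`
  have hKT : ∀ b : F, b ≠ 0 → ∀ k ∈ K b, ∀ x ∈ R.T, k * (x : G) = (x : G) * k := by
    intro b hb k hk x hx
    refine hKcomm b hb k hk x ?_
    exact OddCore.conj_mem_core' (hnz b hb) (congrArg Subtype.val (hzc b x hx)) hk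
  -- the cores coincide
  have hKK : ∀ b : F, b ≠ 0 → ∀ b' : F, b' ≠ 0 → K b ≤ K b' := by
    intro b hb b' hb' k hk
    refine (OddCore.mem_core_iff (hnz b' hb') k).2 ⟨hKT b hb k hk _ (R.u_mem 0 b'), ?_⟩
    exact ((OddCore.mem_core_iff (hnz b hb) k).1 hk).2
  -- the core centralizes `D`
  have hKD : ∀ k ∈ K 1, ∀ l : Fˣ, k * (R.d l : G) = (R.d l : G) * k := by
    intro k hk l
    refine hKcomm 1 one_ne_zero k hk _ ?_
    have h1 : R.d l * R.u 0 1 * (R.d l)⁻¹ = R.u 0 (R.θ l) := by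
      rw [R.conj_d, zero_mul, zero_mul, one_mul]
    have h2 : (R.d l : G) * ((R.u 0 1 : S) : G) * (R.d l : G)⁻¹ = ((R.u 0 (R.θ l) : S) : G) :=
      congrArg Subtype.val h1
    have h3 := OddCore.conj_mem_core (hnz 1 one_ne_zero) (g := (R.d l : G))
      (by rw [h2]; exact hnz _ (R.theta_ne_zero l)) hk
    rw [h2] at h3
    exact hKK _ (R.theta_ne_zero l) 1 one_ne_zero h3
  -- the core is trivial
  have hK1 : K 1 = ⊥ := by
    rw [eq_bot_iff]
    intro k hk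
    set ψ : MulAut S := MulAut.conjNormal k with hψ
    have hψa : ∀ s : S, ((ψ s : S) : G) = k * s * k⁻¹ := fun s => MulAut.conjNormal_apply k s
    have h1 : ∀ x ∈ R.T, ψ x = x := by
      intro x hx
      apply Subtype.ext
      rw [hψa, hKT 1 one_ne_zero k hk x hx, mul_inv_cancel_right]
    have h2 : ∀ l : Fˣ, ψ (R.d l) = R.d l := by
      intro l
      apply Subtype.ext
      rw [hψa, hKD k hk l, mul_inv_cancel_right]
    have h3 : R.w * ψ R.w ∈ Subgroup.normalizer (R.T : Set S) := by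
      refine mem_normalizer_of_comm R h8 (fun l => ?_)
      have h4 : ψ R.w * R.d l = R.d l⁻¹ * ψ R.w := by
        calc ψ R.w * R.d l = ψ (R.w * R.d l) := by rw [map_mul, h2]
          _ = ψ (R.d l⁻¹ * R.w) := by rw [R.w_mul_d]
          _ = _ := by rw [map_mul, h2]
      calc R.w * ψ R.w * R.d l = R.w * (ψ R.w * R.d l) := by rw [mul_assoc]
        _ = (R.w * R.d l⁻¹) * ψ R.w := by rw [h4, mul_assoc]
        _ = R.d l * (R.w * ψ R.w) := by rw [R.w_mul_d, inv_inv, mul_assoc]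
    have h4 : ψ = 1 := R.eq_one_of_fix h1 h3
    rw [← hC, mem_centralizer_iff]
    intro s hs
    have h5 := hψa ⟨s, hs⟩
    rw [h4] at h5
    have h6 : s = k * s * k⁻¹ := h5
    exact (eq_mul_inv_iff_mul_eq.1 h6)
  have hCp : IsPGroup 2 (centralizer ({((R.u 0 1 : S) : G)} : Set G)) :=
    OddCore.isPGroup_centralizer (hnz 1 one_ne_zero) hK1
  -- `S = G`
  rw [eq_top_iff]
  intro g _
  have h1 : g * ((R.u 0 1 : S) : G) * g⁻¹ ∈ S := hSn.conj_mem _ (R.u 0 1).2 g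
  have h2 : IsConj (R.u 0 1) (⟨_, h1⟩ : S) := by
    have h3 : R.u 0 1 * R.u 0 1 = 1 := by rw [R.u_mul_self, zero_mul, R.u_zero]
    have h3' : ((R.u 0 1 : S) : G) * ((R.u 0 1 : S) : G) = 1 := congrArg Subtype.val h3
    refine H504.SzOut.isConj_of_isoSuzuki hSz (R.u_ne_one one_ne_zero) h3 ?_ ?_
    · intro h4
      have h5 : g * ((R.u 0 1 : S) : G) * g⁻¹ = 1 := congrArg Subtype.val h4
      have h6 : ((R.u 0 1 : S) : G) = 1 := by
        calc ((R.u 0 1 : S) : G) = g⁻¹ * (g * ((R.u 0 1 : S) : G) * g⁻¹) * g := by group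
          _ = 1 := by rw [h5]; group
      exact R.u_ne_one one_ne_zero (Subtype.ext h6)
    · apply Subtype.ext
      show (g * ((R.u 0 1 : S) : G) * g⁻¹) * (g * ((R.u 0 1 : S) : G) * g⁻¹) = 1
      calc (g * ((R.u 0 1 : S) : G) * g⁻¹) * (g * ((R.u 0 1 : S) : G) * g⁻¹) =
            g * (((R.u 0 1 : S) : G) * ((R.u 0 1 : S) : G)) * g⁻¹ := by group
        _ = 1 := by rw [h3', mul_one, mul_inv_cancel]
  obtain ⟨x, hx⟩ := isConj_iff.1 h2
  have hx' : (x : G) * ((R.u 0 1 : S) : G) * (x : G)⁻¹ = g * ((R.u 0 1 : S) : G) * g⁻¹ :=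
    congrArg Subtype.val hx
  have h3 : (x : G)⁻¹ * g ∈ centralizer ({((R.u 0 1 : S) : G)} : Set G) := by
    rw [mem_centralizer_singleton_iff]
    calc (x : G)⁻¹ * g * ((R.u 0 1 : S) : G) = (x : G)⁻¹ * (g * ((R.u 0 1 : S) : G) * g⁻¹) * g := by group
      _ = (x : G)⁻¹ * ((x : G) * ((R.u 0 1 : S) : G) * (x : G)⁻¹) * g := by rw [hx']
      _ = _ := by group
  obtain ⟨n, hn⟩ := hCp ⟨_, h3⟩
  have h4 : ((x : G)⁻¹ * g) ^ 2 ^ n = 1 := congrArg Subtype.val hn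
  have h5 : (x : G)⁻¹ * g ∈ S := le_of_isoSuzuki hC hSz h4
  have h6 := S.mul_mem x.2 h5
  rwa [mul_inv_cancel_left] at h6

/-- `G` is a Suzuki group. -/
theorem isoSuzuki {S : Subgroup G} (hSn : S.Normal) (hC : centralizer (S : Set G) = ⊥)
    (hSz : Cfsg.Lie.IsoSuzuki S)
    (hnil : ∀ x : G, orderOf x = 2 → HasNormalPComplement 2 (centralizer ({x} : Set G))) :
    Cfsg.Lie.IsoSuzuki G := by
  have h := eq_top hSn hC hSz hnil
  subst h
  obtain ⟨F, iF, iF', m, hm, hc, ⟨f⟩⟩ := hSz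
  exact ⟨F, iF, iF', m, hm, hc, ⟨Subgroup.topEquiv.symm.trans f⟩⟩

end Cfsg.Agent.H267.SzCase
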