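import Mathlib
import Cfsg.Agent.H267.ThmC2
import Cfsg.Agent.S0058
import Cfsg.Agent.Transfer.PNilpotentBasic

/-!
# Theorem C, part 3: the principal block contains a nonprincipal character of degree less than `|P|`
-/

set_option autoImplicit false

namespace Cfsg.Agent.H267.ThmC

open Cfsg Cfsg.Agent.Characters Cfsg.Agent.Characters.Core Cfsg.Agent.H267.ThmA Cfsg.Agent.H267.Invar
open scoped ComplexConjugate

/-- the numerical contradiction of case B -/
theorem numericB {ι : Type*} (s : Finset ι) (t d : ι → ℝ) (N P : ℝ) (hN : 3 ≤ N) (hP : N ^ 2 ≤ P)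
    (hd : ∀ i ∈ s, 0 < d i) (h1 : ∀ i ∈ s, (N - 1) * t i ≤ d i)
    (h3 : -(N - 1) ^ 2 ≤ ∑ i ∈ s, (t i ^ 3 / d i - (N - 2) * t i ^ 2))
    (h4 : (N - 1) * P - (N - 1) ^ 2 ≤ ∑ i ∈ s, t i ^ 2) : False := by
  have hN1 : 0 < N - 1 := by linarith
  have hle : ∀ i ∈ s, t i ^ 3 / d i ≤ t i ^ 2 / (N - 1) := by
    intro i hi
    have hdi := hd i hi
    rw [div_le_div_iff₀ hdi hN1]
    have := h1 i hi
    have h5 : 0 ≤ t i ^ 2 := sq_nonneg _
    nlinarith [mul_le_mul_of_nonneg_left this h5]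
  have h5 : ∑ i ∈ s, t i ^ 3 / d i ≤ ∑ i ∈ s, t i ^ 2 / (N - 1) := Finset.sum_le_sum hle
  rw [← Finset.sum_div] at h5
  rw [Finset.sum_sub_distrib, ← Finset.mul_sum] at h3
  set A := ∑ i ∈ s, t i ^ 2 with hA
  set C := ∑ i ∈ s, t i ^ 3 / d i with hC
  rw [le_div_iff₀ hN1] at h5
  have h7 : A * ((N - 2) * (N - 1) - 1) ≤ (N - 1) ^ 3 := by nlinarith
  have h8 : 0 < (N - 2) * (N - 1) - 1 := by nlinarith
  have h9 : (N - 1) * N ^ 2 - (N - 1) ^ 2 ≤ A := by
    have := mul_le_mul_of_nonneg_left hP hN1.le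
    linarith
  have h10 := mul_le_mul_of_nonneg_right h9 h8.le
  have h11 : ((N - 1) * N ^ 2 - (N - 1) ^ 2) * ((N - 2) * (N - 1) - 1) - (N - 1) ^ 3 =
      (N - 1) * ((N ^ 2 - N + 1) * (N ^ 2 - 3 * N + 1) - (N - 1) ^ 2) := by ring
  have h12 : 0 < (N ^ 2 - N + 1) * (N ^ 2 - 3 * N + 1) - (N - 1) ^ 2 := by
    have h13 : 1 ≤ N ^ 2 - 3 * N + 1 := by nlinarith
    have h14 : 0 ≤ N ^ 2 - N + 1 := by nlinarith
    nlinarith [mul_le_mul_of_nonneg_left h13 h14]
  have h13 : 0 < (N - 1) * ((N ^ 2 - N + 1) * (N ^ 2 - 3 * N + 1) - (N - 1) ^ 2) := mul_pos hN1 h12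
  linarith

variable {G : Type*} [Group G] [Finite G] {p : ℕ} [Fact p.Prime]

theorem nil' {P : Sylow p G} (h : HypC p P) {s : G} (hs : ∃ k : ℕ, orderOf s = p ^ k) (hs1 : s ≠ 1) :
    HasNormalPComplement p (Subgroup.centralizer ({s} : Set G)) := by
  have hp : p.Prime := Fact.out
  obtain ⟨k, hk⟩ := hs
  obtain ⟨j, rfl⟩ : ∃ j, k = j + 1 := by
    cases k with
    | zero =>
      rw [pow_zero] at hk
      exact absurd (orderOf_eq_one_iff.1 hk) hs1
    | succ j => exact ⟨j, rfl⟩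
  have h1 : orderOf (s ^ p ^ j) = p := by
    rw [orderOf_pow_of_dvd (pow_ne_zero _ hp.ne_zero) (by rw [hk]; exact pow_dvd_pow _ (Nat.le_succ _)), hk,
      pow_succ, Nat.mul_div_cancel_left _ (pow_pos hp.pos _)]
  refine Transfer.PNilpotentBasic.hnc_of_le ?_ (h.nil _ h1)
  intro x hx
  rw [Subgroup.mem_centralizer_singleton_iff] at hx ⊢
  exact (Commute.pow_right (hx : Commute x s) _).eq

theorem mem_core' {P : Sylow p G} (h : HypC p P) {s u : G} (hs : ∃ k : ℕ, orderOf s = p ^ k) (hs1 : s ≠ 1)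
    (hu : ¬ p ∣ orderOf u) (hwu : s * u = u * s) : u ∈ centralizerPPrimeCore p s := by
  have huC : u ∈ Subgroup.centralizer ({s} : Set G) :=
    Subgroup.mem_centralizer_singleton_iff.2 hwu.symm
  refine ⟨⟨u, huC⟩, ?_, rfl⟩
  refine (Blocks.SectionCount.mem_pPrimeCore_iff p (H30.OneClass.index_pPrimeCore (nil' h hs hs1)) _).2 ?_
  rwa [Subgroup.orderOf_mk]

theorem centralizerPPrimeCore_coprime (z : G) : (Nat.card (centralizerPPrimeCore p z)).Coprime p := by
  have h1 : Nat.card (centralizerPPrimeCore p z) =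
      Nat.card (pPrimeCore p (Subgroup.centralizer ({z} : Set G))) :=
    Nat.card_congr ((pPrimeCore p (Subgroup.centralizer ({z} : Set G))).equivMapOfInjective
      _ (Subgroup.subtype_injective _)).toEquiv.symm
  rw [h1]
  exact Lib.Cores.pPrimeCore_coprime p

/-- The centralizers of the elements of `Ω₁(Z(P))` are `P`. -/
theorem cent_eq [IsSimpleGroup G] {P : Sylow p G} (h : HypC p P) {M : Ideal AlgInt} (hM : IsPModular p M)
    {χ : IrrCharacter G} (hχ : χ ∈ blk M G) (hne : χ ≠ one G) {d : ℕ} (hd : (χ : G → ℂ) 1 = d)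
    (hdP : d < Nat.card (P : Subgroup G)) {z : G} (hz : z ∈ Zc p (P : Subgroup G)) (hz1 : z ≠ 1) :
    Subgroup.centralizer ({z} : Set G) = (P : Subgroup G) := by
  have hp : p.Prime := Fact.out
  have hzo := orderOf_Zc hp hz hz1
  have h1 := Classification.RTwo.CoreKill.core_eq_bot hM z P.isPGroup' hz.2.1 (by
    intro s hs hs1 k hk hsk
    exact mem_core' h (orderOf_pow hp P.isPGroup' hs) hs1
      (not_dvd_orderOf hp (centralizerPPrimeCore_coprime z) hk) hsk) (mem_blk.1 hχ) (by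
    intro h2
    apply hne
    apply Subtype.ext
    rw [h2]
    rfl) hd hdP
  obtain ⟨k, hk⟩ := H30.OneClass.index_pPrimeCore (h.nil z hzo)
  rw [h1.2, Subgroup.index_bot] at hk
  have h2 : IsPGroup p (Subgroup.centralizer ({z} : Set G)) := IsPGroup.of_card hk
  exact P.is_maximal' h2 (fun r hr => by
    rw [Subgroup.mem_centralizer_singleton_iff]
    exact hz.2.1 r hr)

theorem normalizer_of_finite {K : Subgroup G} {x : G} (h : ∀ u ∈ K, x * u * x⁻¹ ∈ K) :
    x ∈ Subgroup.normalizer (K : Set G) := by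
  rw [Subgroup.mem_normalizer_iff]
  intro u
  refine ⟨h u, fun hu => ?_⟩
  let f : K → K := fun u => ⟨x * u * x⁻¹, h u u.2⟩
  have hf : Function.Injective f := by
    intro u v huv
    have : x * (u : G) * x⁻¹ = x * (v : G) * x⁻¹ := congrArg Subtype.val huv
    exact Subtype.ext (mul_left_cancel (mul_right_cancel this))
  obtain ⟨v, hv⟩ := (Finite.injective_iff_surjective.1 hf) ⟨_, hu⟩
  have : x * (v : G) * x⁻¹ = x * u * x⁻¹ := congrArg Subtype.val hv
  rw [← mul_left_cancel (mul_right_cancel this)]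
  exact v.2

/-- For `g ∉ N(P)` a conjugate of `g z g⁻¹` under `K` is in `⟨x⟩`. -/
theorem pair_zpowers {P : Sylow p G} (h : HypC p P)
    (hcent : ∀ z ∈ Zc p (P : Subgroup G), z ≠ 1 → Subgroup.centralizer ({z} : Set G) = (P : Subgroup G))
    {x z : G} (hx : x ∈ Zc p (P : Subgroup G)) (hx1 : x ≠ 1)
    (hz : z ∈ Zc p (P : Subgroup G)) (hz1 : z ≠ 1) {g : G}
    (hg : g ∉ Subgroup.normalizer ((P : Subgroup G) : Set G)) :
    ∃ (K : Subgroup G) (k a : G), Pair p (P : Subgroup G) x z g K k a ∧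
      (k⁻¹ * g) * z * (k⁻¹ * g)⁻¹ ∈ Subgroup.zpowers x := by
  have hp : p.Prime := Fact.out
  obtain ⟨K, k, a, hP⟩ := exists_pair h hx hx1 hz hz1 g
  refine ⟨K, k, a, hP, ?_⟩
  set y : G := (k⁻¹ * g) * z * (k⁻¹ * g)⁻¹ with hy
  by_contra hyx
  have hyo : orderOf y = p := by
    have h1 : y = MulAut.conj (k⁻¹ * g) z := by rw [MulAut.conj_apply]
    rw [h1, MulEquiv.orderOf_eq]
    exact orderOf_Zc hp hz hz1
  have hxo := orderOf_Zc hp hx hx1
  have hxy : x * y = y * x := by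
    have h1 : (a⁻¹ * x * a) * (a⁻¹ * y * a) = (a⁻¹ * y * a) * (a⁻¹ * x * a) := Zc_comm hP.ax hP.ay
    have h2 : x * y = a * ((a⁻¹ * x * a) * (a⁻¹ * y * a)) * a⁻¹ := by group
    rw [h2, h1]
    group
  set W : Subgroup G := Subgroup.closure ({x, y} : Set G) with hW
  have hxW : x ∈ W := Subgroup.subset_closure (by simp)
  have hyW : y ∈ W := Subgroup.subset_closure (by simp)
  have hWa : ∀ w ∈ W, a⁻¹ * w * a ∈ Zc p (P : Subgroup G) := by
    intro w hw
    have hle : W ≤ (Zc p (P : Subgroup G)).comap (MulAut.conj a⁻¹).toMonoidHom := by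
      rw [hW, Subgroup.closure_le]
      intro v hv
      rw [SetLike.mem_coe, Subgroup.mem_comap]
      show a⁻¹ * v * a⁻¹⁻¹ ∈ _
      rw [inv_inv]
      rcases hv with rfl | rfl
      · exact hP.ax
      · exact hP.ay
    have := hle hw
    rw [Subgroup.mem_comap] at this
    have h1 : a⁻¹ * w * a⁻¹⁻¹ ∈ Zc p (P : Subgroup G) := this
    rwa [inv_inv] at h1
  have hWab : IsMulCommutative W := by
    refine ⟨⟨fun u v => Subtype.ext ?_⟩⟩
    show (u : G) * v = v * u
    have h1 := Zc_comm (hWa u u.2) (hWa v v.2)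
    have h2 : (u : G) * v = a * ((a⁻¹ * (u : G) * a) * (a⁻¹ * (v : G) * a)) * a⁻¹ := by group
    rw [h2, h1]
    group
  have hWexp : ∀ w ∈ W, w ^ p = 1 := by
    intro w hw
    have h1 := (hWa w hw).2.2
    have h2 : a⁻¹ * w * a = MulAut.conj a⁻¹ w := by rw [MulAut.conj_apply, inv_inv]
    rw [h2, ← map_pow] at h1
    exact (MulEquiv.map_eq_one_iff _).1 h1
  have hWp : IsPGroup p W := fun w => ⟨1, Subtype.ext (by
    rw [pow_one]
    exact hWexp w w.2)⟩
  have hWnc : ¬ IsCyclic W := by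
    rintro ⟨⟨w, hw⟩, hgen⟩
    have hwo : orderOf w = p := by
      refine orderOf_eq_prime (hWexp w hw) ?_
      rintro rfl
      obtain ⟨i, hi⟩ := Subgroup.mem_zpowers_iff.1 (hgen ⟨x, hxW⟩)
      apply hx1
      have := congrArg Subtype.val hi
      rw [Subgroup.coe_zpow, one_zpow] at this
      exact this.symm
    have hle : Subgroup.zpowers x ≤ Subgroup.zpowers w := by
      rw [Subgroup.zpowers_le]
      obtain ⟨i, hi⟩ := Subgroup.mem_zpowers_iff.1 (hgen ⟨x, hxW⟩)
      exact Subgroup.mem_zpowers_iff.2 ⟨i, congrArg Subtype.val hi⟩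
    have heq : Subgroup.zpowers x = Subgroup.zpowers w := by
      apply Subgroup.eq_of_le_of_card_ge hle
      rw [Nat.card_zpowers, Nat.card_zpowers, hxo, hwo]
    apply hyx
    rw [heq]
    obtain ⟨i, hi⟩ := Subgroup.mem_zpowers_iff.1 (hgen ⟨y, hyW⟩)
    exact Subgroup.mem_zpowers_iff.2 ⟨i, congrArg Subtype.val hi⟩
  have hWK : W ≤ Subgroup.normalizer (K : Set G) := by
    rw [hW, Subgroup.closure_le]
    intro v hv
    rcases hv with rfl | rfl
    · exact normalizer_of_finite hP.nx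
    · exact normalizer_of_finite hP.ny
  have hcop : (Nat.card W).Coprime (Nat.card K) := by
    obtain ⟨n, hn⟩ := IsPGroup.iff_card.1 hWp
    rw [hn]
    exact Nat.Coprime.pow_left _ hP.cop.symm
  have hgen := S0058.result W K hWnc hWK hcop
  have hK : K = ⊥ := by
    rw [eq_bot_iff, ← hgen]
    refine iSup_le fun w => iSup_le fun hw => ?_
    obtain ⟨hwW, hw1⟩ := hw
    rintro u ⟨huK, huC⟩
    rw [Subgroup.mem_bot]
    have h1 : a⁻¹ * u * a ∈ Subgroup.centralizer ({a⁻¹ * w * a} : Set G) := by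
      rw [Subgroup.mem_centralizer_singleton_iff]
      have h2 : u * w = w * u := Subgroup.mem_centralizer_singleton_iff.1 huC
      calc a⁻¹ * u * a * (a⁻¹ * w * a) = a⁻¹ * (u * w) * a := by group
        _ = a⁻¹ * (w * u) * a := by rw [h2]
        _ = a⁻¹ * w * a * (a⁻¹ * u * a) := by group
    rw [hcent _ (hWa w hwW) (by
      intro h2
      apply hw1
      have h3 : w = a * (a⁻¹ * w * a) * a⁻¹ := by group
      rw [h3, h2]
      group)] at h1
    have h2 : ¬ p ∣ orderOf (a⁻¹ * u * a) := by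
      have h3 : a⁻¹ * u * a = MulAut.conj a⁻¹ u := by rw [MulAut.conj_apply, inv_inv]
      rw [h3, MulEquiv.orderOf_eq]
      exact not_dvd_orderOf hp hP.cop huK
    have h3 : a⁻¹ * u * a = 1 := by
      by_contra hne
      exact h2 (dvd_orderOf hp P.isPGroup' h1 hne)
    have h4 : u = a * (a⁻¹ * u * a) * a⁻¹ := by group
    rw [h4, h3]
    group
  have hk1 : k = 1 := by
    have := hP.kK
    rw [hK, Subgroup.mem_bot] at this
    exact this
  have hyz : y = g * z * g⁻¹ := by rw [hy, hk1]; group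
  -- `y ∈ C(x) = P`
  have hyP : y ∈ (P : Subgroup G) := by
    rw [← hcent x hx hx1, Subgroup.mem_centralizer_singleton_iff]
    exact hxy.symm
  rw [hyz] at hyP
  have hyZ := h.fus z hz g hyP
  have hy1 : g * z * g⁻¹ ≠ 1 := by
    intro h2
    apply hz1
    have h3 : z = g⁻¹ * (g * z * g⁻¹) * g := by group
    rw [h3, h2]
    group
  have hC := hcent _ hyZ hy1
  apply hg
  apply normalizer_of_finite
  intro u hu
  have hu' : u * z = z * u := by
    have h2 : u ∈ Subgroup.centralizer ({z} : Set G) := by rwa [hcent z hz hz1]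
    exact Subgroup.mem_centralizer_singleton_iff.1 h2
  rw [← hC, Subgroup.mem_centralizer_singleton_iff]
  calc g * u * g⁻¹ * (g * z * g⁻¹) = g * (u * z) * g⁻¹ := by group
    _ = g * (z * u) * g⁻¹ := by rw [hu']
    _ = g * z * g⁻¹ * (g * u * g⁻¹) := by group

/-- The key evaluation at one element. -/
theorem keyAt {W : Subgroup G} [Fintype W] (hab : ∀ x ∈ W, ∀ y ∈ W, x * y = y * x) (hWp : IsPGroup p W)
    {M : Ideal AlgInt} (hM : IsPModular p M) (g : G)
    (hex : ∃ K : Subgroup G, (Nat.card K).Coprime p ∧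
      (∀ w ∈ W, ∀ x ∈ K, w * x * w⁻¹ ∈ K) ∧
      (∀ w ∈ W, w ≠ 1 → ∀ u ∈ K, w * u = u * w → u ∈ centralizerPPrimeCore p w) ∧
      ∃ k ∈ K, k * g ∈ Subgroup.normalizer (W : Set G)) :
    ∃ u : W → G, (∀ w, ¬ p ∣ orderOf (u w)) ∧ ∀ χ ∈ principalBlock M G,
      S W (χ : G → ℂ) g = (Nat.card W : ℂ) * T W (χ : G → ℂ) + ∑ w : W, (χ : G → ℂ) (u w) ∧
      (S W (χ : G → ℂ) g).re ≤ (Nat.card W : ℝ) * (∑ w : W, (χ : G → ℂ) (u w)).re := by
  classical
  have := Fintype.ofFinite G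
  have hp : p.Prime := Fact.out
  obtain ⟨K, hK, hWK, hbal, k, hk, hkg⟩ := hex
  have hKu : ∀ w ∈ W, k * w * k⁻¹ * w⁻¹ ∈ K := by
    intro w hw
    have h1 := hWK w hw k⁻¹ (K.inv_mem hk)
    have h2 : k * w * k⁻¹ * w⁻¹ = k * (w * k⁻¹ * w⁻¹) := by group
    rw [h2]
    exact K.mul_mem hk h1
  refine ⟨fun w => k * w * k⁻¹ * (w : G)⁻¹, fun w => not_dvd_orderOf hp hK (hKu w w.2), ?_⟩
  intro χ hχ
  have hcl := isIrr_isClassFunction χ.2
  have hS : S W (χ : G → ℂ) g = ∑ w : W, ∑ v : W, (χ : G → ℂ) (k * w * k⁻¹ * v) := by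
    unfold S
    refine Finset.sum_congr rfl fun w _ => ?_
    have hn : ∀ v : W, (k * g) * v * (k * g)⁻¹ ∈ W := fun v =>
      (Subgroup.mem_normalizer_iff.1 hkg v).1 v.2
    have hn' : ∀ v : W, (k * g)⁻¹ * v * (k * g) ∈ W := by
      intro v
      have := (Subgroup.mem_normalizer_iff.1 (inv_mem hkg) v).1 v.2
      rwa [inv_inv] at this
    refine Fintype.sum_equiv
      { toFun := fun v => ⟨_, hn v⟩
        invFun := fun v => ⟨_, hn' v⟩
        left_inv := fun v => Subtype.ext (by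
          show (k * g)⁻¹ * ((k * g) * v * (k * g)⁻¹) * (k * g) = v
          group)
        right_inv := fun v => Subtype.ext (by
          show (k * g) * ((k * g)⁻¹ * v * (k * g)) * (k * g)⁻¹ = v
          group) } _ _ fun v => ?_
    show (χ : G → ℂ) (g⁻¹ * w * g * v) = (χ : G → ℂ) (k * w * k⁻¹ * ((k * g) * v * (k * g)⁻¹))
    rw [← hcl _ (k * g)]
    congr 1
    group
  have hpos := PosDef.re_le χ.2 W k⁻¹
  simp only [inv_inv] at hpos
  constructor
  · rw [hS]
    have h1 : ∀ w : W, ∑ v : W, (χ : G → ℂ) (k * w * k⁻¹ * v) =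
        T W (χ : G → ℂ) + (χ : G → ℂ) (k * w * k⁻¹ * (w : G)⁻¹) := by
      intro w
      have h2 : ∀ v : W, (χ : G → ℂ) (k * w * k⁻¹ * v) = (χ : G → ℂ) ((w * v : W) : G) +
          (if v = w⁻¹ then (χ : G → ℂ) (k * w * k⁻¹ * (w : G)⁻¹) - (χ : G → ℂ) 1 else 0) := by
        intro v
        by_cases hv : v = w⁻¹
        · rw [if_pos hv, hv]
          simp
        · rw [if_neg hv, add_zero]
          have hwv : (w : G) * v ≠ 1 := by
            intro h3
            apply hv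
            apply Subtype.ext
            rw [Subgroup.coe_inv]
            exact eq_inv_of_mul_eq_one_right h3
          have h4 := val hM hWp hab hK hWK hbal hχ (K.inv_mem hk) w.2 v.2 hwv
          rw [inv_inv] at h4
          rw [h4, Subgroup.coe_mul]
      rw [Finset.sum_congr rfl fun v _ => h2 v, Finset.sum_add_distrib, Finset.sum_ite_eq',
        if_pos (Finset.mem_univ _)]
      have h3 : ∑ v : W, (χ : G → ℂ) ((w * v : W) : G) = ∑ v : W, (χ : G → ℂ) v :=
        Fintype.sum_equiv (Equiv.mulLeft w) _ _ fun v => rfl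
      rw [h3]
      unfold T
      ring
    rw [Finset.sum_congr rfl fun w _ => h1 w, Finset.sum_add_distrib, Finset.sum_const,
      Finset.card_univ, nsmul_eq_mul, ← Nat.card_eq_fintype_card]
  · rw [hS]
    exact hpos

end Cfsg.Agent.H267.ThmC
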