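import Mathlib
import Cfsg.Agent.H267.ThmC3

/-!
# Theorem C, part 4: the end of case B
-/

set_option autoImplicit false

namespace Cfsg.Agent.H267.ThmC

open Cfsg Cfsg.Agent.Characters Cfsg.Agent.Characters.Core Cfsg.Agent.H267.ThmA Cfsg.Agent.H267.Invar
open scoped ComplexConjugate

variable {G : Type*} [Group G] [Finite G] {p : ℕ} [Fact p.Prime]

/-- the sum over the powers of `s` -/
noncomputable def A (p : ℕ) (χ : G → ℂ) (s : G) : ℂ := ∑ i ∈ Finset.range p, χ (s ^ i)

omit [Fact p.Prime] in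
theorem A_eq {χ : G → ℂ} {s : G} (hs : orderOf s = p) [Fintype (Subgroup.zpowers s)] :
    ∑ w : Subgroup.zpowers s, χ w = A p χ s := by
  unfold A
  rw [← hs, Finset.sum_range]
  exact (Fintype.sum_equiv (finEquivZPowers (isOfFinOrder_of_finite s)) _ _ fun i => by
    rw [finEquivZPowers_apply]).symm

omit [Fact p.Prime] in
theorem A_eq' {χ : G → ℂ} {s : G} (hs : orderOf s = p) {W : Subgroup G} [Fintype W]
    (hW : W = Subgroup.zpowers s) : ∑ w : W, χ w = A p χ s := by
  subst hW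
  exact A_eq hs

theorem A_of_mem {χ : G → ℂ} {s w : G} (hs : orderOf s = p) (hw : w ∈ Subgroup.zpowers s)
    (hw1 : w ≠ 1) : A p χ w = A p χ s := by
  classical
  have hp : p.Prime := Fact.out
  have hwo : orderOf w = p := by
    have h1 : orderOf w ∣ p := by
      rw [← hs]
      exact orderOf_dvd_of_mem_zpowers hw
    rcases (Nat.dvd_prime hp).1 h1 with h2 | h2
    · exact absurd (orderOf_eq_one_iff.1 h2) hw1
    · exact h2
  have heq : Subgroup.zpowers w = Subgroup.zpowers s := by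
    apply Subgroup.eq_of_le_of_card_ge (Subgroup.zpowers_le.2 hw)
    rw [Nat.card_zpowers, Nat.card_zpowers, hs, hwo]
  have := Fintype.ofFinite (Subgroup.zpowers s)
  have := Fintype.ofFinite (Subgroup.zpowers w)
  rw [← A_eq hs, ← A_eq hwo]
  exact Fintype.sum_equiv (MulEquiv.subgroupCongr heq).toEquiv _ _ fun _ => rfl

omit [Finite G] [Fact p.Prime] in
theorem A_conj {χ : G → ℂ} (hχ : IsIrrCharacter G χ) (s b : G) : A p χ (b * s * b⁻¹) = A p χ s := by
  unfold A
  refine Finset.sum_congr rfl fun i _ => ?_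
  rw [conj_pow, isIrr_isClassFunction hχ]

theorem A_Zc {P : Sylow p G} (h : HypC p P)
    (hcent : ∀ z ∈ Zc p (P : Subgroup G), z ≠ 1 → Subgroup.centralizer ({z} : Set G) = (P : Subgroup G))
    {x z : G} (hx : x ∈ Zc p (P : Subgroup G)) (hx1 : x ≠ 1)
    (hz : z ∈ Zc p (P : Subgroup G)) (hz1 : z ≠ 1) {g : G}
    (hg : g ∉ Subgroup.normalizer ((P : Subgroup G) : Set G)) {χ : G → ℂ} (hχ : IsIrrCharacter G χ) :
    A p χ z = A p χ x := by
  have hp : p.Prime := Fact.out
  obtain ⟨K, k, a, hP, hy⟩ := pair_zpowers h hcent hx hx1 hz hz1 hg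
  rw [← A_conj hχ z (k⁻¹ * g)]
  apply A_of_mem (orderOf_Zc hp hx hx1) hy
  intro h1
  apply hz1
  have h2 : z = (k⁻¹ * g)⁻¹ * ((k⁻¹ * g) * z * (k⁻¹ * g)⁻¹) * (k⁻¹ * g) := by group
  rw [h2, h1]
  group

/-- The double sum at elements of `N(P)`. -/
theorem S_normalizer {P : Sylow p G} (h : HypC p P)
    (hcent : ∀ z ∈ Zc p (P : Subgroup G), z ≠ 1 → Subgroup.centralizer ({z} : Set G) = (P : Subgroup G))
    {x : G} (hx : x ∈ Zc p (P : Subgroup G)) (hx1 : x ≠ 1) {g₀ : G}
    (hg₀ : g₀ ∉ Subgroup.normalizer ((P : Subgroup G) : Set G)) (W : Subgroup G) [Fintype W]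
    (hW : W = Subgroup.zpowers x) {g : G} (hg : g ∈ Subgroup.normalizer ((P : Subgroup G) : Set G)) :
    ∃ n : ℝ, 0 ≤ n ∧ n ≤ p ∧ ∀ χ : G → ℂ, IsIrrCharacter G χ →
      ((p : ℂ) - 1) * S W χ g = (p : ℂ) ^ 2 * T W χ +
        (n : ℂ) * (((p : ℂ) - 1) * χ 1 - T W χ) := by
  classical
  have hp : p.Prime := Fact.out
  have hxo := orderOf_Zc hp hx hx1
  have hWZ : ∀ w ∈ W, w ∈ Zc p (P : Subgroup G) := by
    intro w hw
    rw [hW] at hw
    exact (Subgroup.zpowers_le.2 hx) hw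
  have hcard : Nat.card W = p := by rw [hW, Nat.card_zpowers, hxo]
  have hcard' : Fintype.card W = p := by rw [← Nat.card_eq_fintype_card, hcard]
  have hgZ : ∀ w ∈ W, g⁻¹ * w * g ∈ Zc p (P : Subgroup G) := by
    intro w hw
    have h1 : g⁻¹ * w * g = g⁻¹ * w * g⁻¹⁻¹ := by rw [inv_inv]
    rw [h1]
    apply h.fus w (hWZ w hw)
    exact (Subgroup.mem_normalizer_iff.1 (inv_mem hg) w).1 (hWZ w hw).1
  have hsZ : ∀ w v : W, g⁻¹ * (w : G) * g * v ∈ Zc p (P : Subgroup G) := fun w v =>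
    mul_mem (hgZ w w.2) (hWZ v v.2)
  refine ⟨∑ w : W, ∑ v : W, (if g⁻¹ * (w : G) * g * v = 1 then (1 : ℝ) else 0), ?_, ?_, ?_⟩
  · exact Finset.sum_nonneg fun w _ => Finset.sum_nonneg fun v _ => by split_ifs <;> norm_num
  · have h1 : ∀ w : W, ∑ v : W, (if g⁻¹ * (w : G) * g * v = 1 then (1 : ℝ) else 0) ≤ 1 := by
      intro w
      by_cases hex : ∃ v : W, g⁻¹ * (w : G) * g * v = 1
      · obtain ⟨v₀, hv₀⟩ := hex
        have h2 : ∀ v : W, (if g⁻¹ * (w : G) * g * v = 1 then (1 : ℝ) else 0) =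
            if v = v₀ then 1 else 0 := by
          intro v
          by_cases hv : v = v₀
          · rw [if_pos hv, hv, if_pos hv₀]
          · rw [if_neg hv, if_neg]
            intro h3
            apply hv
            apply Subtype.ext
            exact mul_left_cancel (h3.trans hv₀.symm)
        rw [Finset.sum_congr rfl fun v _ => h2 v, Finset.sum_ite_eq', if_pos (Finset.mem_univ _)]
      · push Not at hex
        rw [Finset.sum_congr rfl fun v _ => if_neg (hex v), Finset.sum_const_zero]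
        exact zero_le_one
    calc ∑ w : W, ∑ v : W, (if g⁻¹ * (w : G) * g * v = 1 then (1 : ℝ) else 0) ≤ ∑ w : W, (1 : ℝ) :=
          Finset.sum_le_sum fun w _ => h1 w
      _ = p := by rw [Finset.sum_const, Finset.card_univ, nsmul_eq_mul, mul_one, hcard']
  · intro χ hχ
    have hT : A p χ x = T W χ + χ 1 := by
      have h1 := A_eq' (χ := χ) hxo hW
      unfold T
      rw [h1]
      ring
    -- the Galois average
    have h1 : ∀ j ∈ Finset.range p, ∑ w : W, ∑ v : W, χ ((g⁻¹ * (w : G) * g * v) ^ j) =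
        if j = 0 then (p : ℂ) ^ 2 * χ 1 else S W χ g := by
      intro j hj
      by_cases hj0 : j = 0
      · rw [if_pos hj0, hj0]
        simp only [pow_zero, Finset.sum_const, Finset.card_univ, nsmul_eq_mul, hcard']
        ring
      · rw [if_neg hj0]
        have hcop : (Nat.card W).Coprime j := by
          rw [hcard]
          refine (Nat.Prime.coprime_iff_not_dvd hp).2 fun hd => ?_
          have := Nat.le_of_dvd (Nat.pos_of_ne_zero hj0) hd
          rw [Finset.mem_range] at hj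
          omega
        unfold S
        refine Fintype.sum_equiv (powCoprime hcop) _ _ fun w => ?_
        refine Fintype.sum_equiv (powCoprime hcop) _ _ fun v => ?_
        rw [powCoprime_apply, powCoprime_apply, Subgroup.coe_pow, Subgroup.coe_pow]
        have hcom : Commute (g⁻¹ * (w : G) * g) (v : G) := Zc_comm (hgZ w w.2) (hWZ v v.2)
        rw [hcom.mul_pow]
        have h3 : (g⁻¹ * (w : G) * g) ^ j = g⁻¹ * (w : G) ^ j * g := by
          have h4 := conj_pow (i := j) (a := g⁻¹) (b := (w : G))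
          rw [inv_inv] at h4
          exact h4
        rw [h3]
    have h2 : ∑ j ∈ Finset.range p, ∑ w : W, ∑ v : W, χ ((g⁻¹ * (w : G) * g * v) ^ j) =
        (p : ℂ) ^ 2 * χ 1 + ((p : ℂ) - 1) * S W χ g := by
      rw [Finset.sum_congr rfl h1]
      obtain ⟨q, hq⟩ : ∃ q, p = q + 1 := ⟨p - 1, by have := hp.pos; omega⟩
      rw [hq, Finset.sum_range_succ']
      simp only [Nat.add_eq_zero_iff, one_ne_zero, and_false, if_false, if_true, Finset.sum_const,
        Finset.card_range, nsmul_eq_mul]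
      push_cast
      ring
    have h3 : ∑ j ∈ Finset.range p, ∑ w : W, ∑ v : W, χ ((g⁻¹ * (w : G) * g * v) ^ j) =
        ∑ w : W, ∑ v : W, A p χ (g⁻¹ * (w : G) * g * v) := by
      unfold A
      rw [Finset.sum_comm]
      refine Finset.sum_congr rfl fun w _ => ?_
      rw [Finset.sum_comm]
    have h4 : ∀ w v : W, A p χ (g⁻¹ * (w : G) * g * v) = (T W χ + χ 1) +
        ((if g⁻¹ * (w : G) * g * v = 1 then (1 : ℝ) else 0 : ℝ) : ℂ) *
          (((p : ℂ) - 1) * χ 1 - T W χ) := by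
      intro w v
      by_cases hs : g⁻¹ * (w : G) * g * v = 1
      · rw [if_pos hs, hs]
        unfold A
        simp only [one_pow, Finset.sum_const, Finset.card_range, nsmul_eq_mul]
        push_cast
        ring
      · rw [if_neg hs, A_Zc h hcent hx hx1 (hsZ w v) hs hg₀ hχ, hT]
        push_cast
        ring
    rw [h3, Finset.sum_congr rfl fun w _ => Finset.sum_congr rfl fun v _ => h4 w v] at h2
    simp only [Finset.sum_add_distrib, Finset.sum_const, Finset.card_univ, nsmul_eq_mul, hcard',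
      ← Finset.sum_mul, ← Complex.ofReal_sum] at h2
    linear_combination -h2

/-- The two inequalities. -/
theorem main_ineq {P : Sylow p G} (h : HypC p P) {M : Ideal AlgInt} (hM : IsPModular p M)
    (hcent : ∀ z ∈ Zc p (P : Subgroup G), z ≠ 1 → Subgroup.centralizer ({z} : Set G) = (P : Subgroup G))
    {x : G} (hx : x ∈ Zc p (P : Subgroup G)) (hx1 : x ≠ 1) {g₀ : G}
    (hg₀ : g₀ ∉ Subgroup.normalizer ((P : Subgroup G) : Set G)) (W : Subgroup G) [Fintype W]
    (hW : W = Subgroup.zpowers x) (g : G) :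
    (∀ χ ∈ principalBlock M G, (p : ℝ) ^ 2 * (T W (χ : G → ℂ)).re ≤
      ((p : ℝ) - 1) * (S W (χ : G → ℂ) g).re) ∧
    0 ≤ (∑ χ ∈ blk M G, (S W (χ : G → ℂ) g -
      (p : ℂ) * T W (χ : G → ℂ)) * T W (χ : G → ℂ)).re := by
  classical
  have hp : p.Prime := Fact.out
  have hxo := orderOf_Zc hp hx hx1
  have hcard : Nat.card W = p := by rw [hW, Nat.card_zpowers, hxo]
  have hWZ : ∀ w ∈ W, w ∈ Zc p (P : Subgroup G) := fun w hw => (Subgroup.zpowers_le.2 hx) (hW ▸ hw)
  have hab : ∀ u ∈ W, ∀ v ∈ W, u * v = v * u := fun u hu v hv => Zc_comm (hWZ u hu) (hWZ v hv)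
  have hWp : IsPGroup p W := IsPGroup.of_card (n := 1) (by rw [hcard, pow_one])
  have hp1 : (1 : ℝ) < p := by exact_mod_cast hp.one_lt
  by_cases hg : g ∈ Subgroup.normalizer ((P : Subgroup G) : Set G)
  · obtain ⟨n, hn0, hnp, hn⟩ := S_normalizer h hcent hx hx1 hg₀ W hW hg
    constructor
    · intro χ hχ
      obtain ⟨t, ht⟩ := T_eq W (isIrr_isCharacter χ.2)
      obtain ⟨d, hd0, hd⟩ := isIrr_apply_one χ.2
      have h1 := hn χ χ.2
      rw [ht, hd] at h1
      have h2 := congrArg Complex.re h1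
      have h3 : ((p : ℂ) - 1) * S W (χ : G → ℂ) g = (((p : ℝ) - 1 : ℝ) : ℂ) * S W (χ : G → ℂ) g := by
        push_cast; ring
      have h4 : (p : ℂ) ^ 2 * (t : ℂ) + (n : ℂ) * (((p : ℂ) - 1) * (d : ℂ) - (t : ℂ)) =
          (((p : ℝ) ^ 2 * t + n * (((p : ℝ) - 1) * d - t) : ℝ) : ℂ) := by push_cast; ring
      rw [h3, h4, Complex.re_ofReal_mul, Complex.ofReal_re] at h2
      rw [ht, Complex.ofReal_re, h2]
      have h5 : t ≤ ((p : ℝ) - 1) * d := by
        have h6 : T W (χ : G → ℂ) = ∑ w ∈ (Finset.univ : Finset W).erase 1, (χ : G → ℂ) w :=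
          T_eq_sum W _
        have h7 : (T W (χ : G → ℂ)).re ≤ ∑ w ∈ (Finset.univ : Finset W).erase 1, (d : ℝ) := by
          rw [h6, Complex.re_sum]
          exact Finset.sum_le_sum fun w _ => (Complex.re_le_norm _).trans
            (norm_apply_le (isIrr_isCharacter χ.2) hd _)
        rw [ht, Complex.ofReal_re, Finset.sum_const, nsmul_eq_mul,
          Finset.card_erase_of_mem (Finset.mem_univ _), Finset.card_univ,
          ← Nat.card_eq_fintype_card, hcard, Nat.cast_sub hp.one_lt.le, Nat.cast_one] at h7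
        exact h7
      nlinarith [mul_nonneg hn0 (sub_nonneg.2 h5)]
    · have h1 : ((p : ℂ) - 1) * ∑ χ ∈ blk M G, (S W (χ : G → ℂ) g - (p : ℂ) * T W (χ : G → ℂ)) *
          T W (χ : G → ℂ) = ((((p : ℝ) - n) * ∑ χ ∈ blk M G, (T W (χ : G → ℂ)).re ^ 2 : ℝ) : ℂ) := by
        have h2 : ∀ χ ∈ blk M G, ((p : ℂ) - 1) * ((S W (χ : G → ℂ) g - (p : ℂ) * T W (χ : G → ℂ)) *
            T W (χ : G → ℂ)) = (n : ℂ) * ((p : ℂ) - 1) * ((χ : G → ℂ) 1 * T W (χ : G → ℂ)) +
            ((p : ℂ) - n) * T W (χ : G → ℂ) ^ 2 := by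
          intro χ _
          have h3 := hn χ χ.2
          linear_combination T W (χ : G → ℂ) * h3
        rw [Finset.mul_sum, Finset.sum_congr rfl h2, Finset.sum_add_distrib, ← Finset.mul_sum,
          sum_mul_T hWp hM (one_not_dvd (G := G) hp), mul_zero, zero_add, ← Finset.mul_sum]
        push_cast
        congr 1
        refine Finset.sum_congr rfl fun χ _ => ?_
        rw [← T_ofReal W (isIrr_isCharacter χ.2)]
      have h2 := congrArg Complex.re h1
      have h3 : ((p : ℂ) - 1) = (((p : ℝ) - 1 : ℝ) : ℂ) := by push_cast; ring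
      rw [h3, Complex.re_ofReal_mul, Complex.ofReal_re] at h2
      have h4 : 0 ≤ ((p : ℝ) - n) * ∑ χ ∈ blk M G, (T W (χ : G → ℂ)).re ^ 2 :=
        mul_nonneg (by linarith) (Finset.sum_nonneg fun _ _ => sq_nonneg _)
      rw [← h2] at h4
      exact (mul_nonneg_iff_of_pos_left (by linarith)).1 h4
  · obtain ⟨K, k, a, hP, hy⟩ := pair_zpowers h hcent hx hx1 hx hx1 hg
    have hWK : ∀ w ∈ W, ∀ u ∈ K, w * u * w⁻¹ ∈ K := by
      intro w hw u hu
      have h1 : W ≤ Subgroup.normalizer (K : Set G) := by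
        rw [hW, Subgroup.zpowers_le]
        exact normalizer_of_finite hP.nx
      exact (Subgroup.mem_normalizer_iff.1 (h1 hw) u).1 hu
    have hN : k⁻¹ * g ∈ Subgroup.normalizer (W : Set G) := by
      apply normalizer_of_finite
      rw [hW]
      rintro _ ⟨i, rfl⟩
      have h1 := zpow_mem hy i
      rw [conj_zpow] at h1
      exact h1
    obtain ⟨u, hu, hu2⟩ := keyAt hab hWp hM g ⟨K, hP.cop, hWK, fun w hw hw1 v hv hwv =>
      mem_core' h (orderOf_pow hp hWp hw) hw1 (not_dvd_orderOf hp hP.cop hv) hwv, k⁻¹,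
      K.inv_mem hP.kK, hN⟩
    constructor
    · intro χ hχ
      obtain ⟨e1, e2⟩ := hu2 χ hχ
      obtain ⟨t, ht⟩ := T_eq W (isIrr_isCharacter χ.2)
      have e3 := congrArg Complex.re e1
      rw [ht, Complex.add_re, ← Complex.ofReal_natCast, ← Complex.ofReal_mul, Complex.ofReal_re,
        hcard] at e3
      rw [hcard] at e2
      rw [ht, Complex.ofReal_re]
      nlinarith
    · have h1 : ∀ χ ∈ blk M G, (S W (χ : G → ℂ) g - (p : ℂ) * T W (χ : G → ℂ)) * T W (χ : G → ℂ) =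
          ∑ w : W, (χ : G → ℂ) (u w) * T W (χ : G → ℂ) := by
        intro χ hχ
        rw [(hu2 χ (mem_blk.1 hχ)).1, hcard, add_sub_cancel_left, Finset.sum_mul]
      rw [Finset.sum_congr rfl h1, Finset.sum_comm, Finset.sum_eq_zero fun w _ =>
        sum_mul_T hWp hM (hu w), Complex.zero_re]

/-- **Case B.** -/
theorem caseB {P : Sylow p G} (h : HypC p P) (hp2 : p ≠ 2) {M : Ideal AlgInt} (hM : IsPModular p M)
    (hcent : ∀ z ∈ Zc p (P : Subgroup G), z ≠ 1 → Subgroup.centralizer ({z} : Set G) = (P : Subgroup G))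
    {x : G} (hx : x ∈ Zc p (P : Subgroup G)) (hx1 : x ≠ 1)
    (W : Subgroup G) (hW : W = Subgroup.zpowers x)
    (hcl : Subgroup.normalClosure (W : Set G) = ⊤) {g₀ : G}
    (hg₀ : g₀ ∉ Subgroup.normalizer ((P : Subgroup G) : Set G))
    (hP2 : p ^ 2 ≤ Nat.card (P : Subgroup G)) : False := by
  classical
  have := Fintype.ofFinite G
  have hp : p.Prime := Fact.out
  have := Fintype.ofFinite W
  have hxo := orderOf_Zc hp hx hx1
  have hcard : Nat.card W = p := by rw [hW, Nat.card_zpowers, hxo]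
  have hWZ : ∀ w ∈ W, w ∈ Zc p (P : Subgroup G) := fun w hw => (Subgroup.zpowers_le.2 hx) (hW ▸ hw)
  have hWp : IsPGroup p W := IsPGroup.of_card (n := 1) (by rw [hcard, pow_one])
  have hp3 : 3 ≤ p := by
    have := hp.two_le
    omega
  have hp3' : (3 : ℝ) ≤ p := by exact_mod_cast hp3
  have hdeg : ∀ χ : IrrCharacter G, ∃ d : ℕ, 0 < d ∧ (χ : G → ℂ) 1 = d := fun χ => isIrr_apply_one χ.2
  choose d hd0 hd using hdeg
  have hreal : ∀ χ : IrrCharacter G, T W (χ : G → ℂ) = ((T W (χ : G → ℂ)).re : ℂ) := fun χ =>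
    T_ofReal W (isIrr_isCharacter χ.2)
  set t : IrrCharacter G → ℝ := fun χ => (T W (χ : G → ℂ)).re with ht
  have hT : ∀ χ : IrrCharacter G, T W (χ : G → ℂ) = (t χ : ℂ) := hreal
  have hSre : ∀ χ : IrrCharacter G, (∑ g : G, S W (χ : G → ℂ) g) =
      (((Nat.card G : ℝ) * (t χ + d χ) ^ 2 / d χ : ℝ) : ℂ) := by
    intro χ
    rw [sum_S W χ.2, hT, hd]
    push_cast
    ring
  have hG : (0 : ℝ) < Nat.card G := by exact_mod_cast Nat.card_pos
  -- the bound for the nonprincipal characters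
  have hineq : ∀ χ ∈ blk M G, (p : ℝ) ^ 2 * t χ * d χ ≤ ((p : ℝ) - 1) * (t χ + d χ) ^ 2 := by
    intro χ hχ
    have h1 : ∑ g : G, (p : ℝ) ^ 2 * t χ ≤ ∑ g : G, ((p : ℝ) - 1) * (S W (χ : G → ℂ) g).re :=
      Finset.sum_le_sum fun g _ => (main_ineq h hM hcent hx hx1 hg₀ W hW g).1 χ (mem_blk.1 hχ)
    rw [Finset.sum_const, Finset.card_univ, nsmul_eq_mul, ← Nat.card_eq_fintype_card,
      ← Finset.mul_sum, ← Complex.re_sum, hSre, Complex.ofReal_re] at h1
    have hd1 : (0 : ℝ) < d χ := by exact_mod_cast hd0 χ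
    have h4 : (Nat.card G : ℝ) * ((p : ℝ) ^ 2 * t χ * d χ) ≤
        (Nat.card G : ℝ) * (((p : ℝ) - 1) * (t χ + d χ) ^ 2) := by
      have := mul_le_mul_of_nonneg_right h1 hd1.le
      have h5 : ((p : ℝ) - 1) * ((Nat.card G : ℝ) * (t χ + d χ) ^ 2 / d χ) * d χ =
          (Nat.card G : ℝ) * (((p : ℝ) - 1) * (t χ + d χ) ^ 2) := by
        field_simp
      rw [h5] at this
      linarith
    exact le_of_mul_le_mul_left h4 hG
  have hTle : ∀ χ ∈ (blk M G).erase (one G), ((p : ℝ) - 1) * t χ ≤ d χ := by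
    intro χ hχ
    have h1 := hineq χ (Finset.mem_of_mem_erase hχ)
    have h2 : t χ < ((p : ℝ) - 1) * d χ := by
      have := T_lt hcl (Finset.ne_of_mem_erase hχ) (hd χ)
      rwa [hcard] at this
    have h3 : 0 ≤ (t χ - ((p : ℝ) - 1) * d χ) * (((p : ℝ) - 1) * t χ - d χ) := by
      nlinarith
    by_contra hcon
    push Not at hcon
    have h4 : (t χ - ((p : ℝ) - 1) * d χ) * (((p : ℝ) - 1) * t χ - d χ) < 0 :=
      mul_neg_of_neg_of_pos (by linarith) (by linarith)
    linarith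
  -- the cubic inequality
  have h2 := sum_mul_T hWp hM (one_not_dvd (G := G) hp)
  have hcub : 0 ≤ ∑ χ ∈ blk M G, (t χ ^ 3 / d χ - ((p : ℝ) - 2) * t χ ^ 2) := by
    have h1 : 0 ≤ (∑ g : G, ∑ χ ∈ blk M G, (S W (χ : G → ℂ) g -
        (p : ℂ) * T W (χ : G → ℂ)) * T W (χ : G → ℂ)).re := by
      rw [Complex.re_sum]
      exact Finset.sum_nonneg fun g _ => (main_ineq h hM hcent hx hx1 hg₀ W hW g).2
    rw [Finset.sum_comm] at h1
    have h3 : ∀ χ ∈ blk M G, ∑ g : G,
        (S W (χ : G → ℂ) g - (p : ℂ) * T W (χ : G → ℂ)) * T W (χ : G → ℂ) =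
        (Nat.card G : ℂ) * (((t χ ^ 3 / d χ - ((p : ℝ) - 2) * t χ ^ 2 : ℝ) : ℂ) +
          (χ : G → ℂ) 1 * T W (χ : G → ℂ)) := by
      intro χ _
      have hdc : (d χ : ℂ) ≠ 0 := by exact_mod_cast (hd0 χ).ne'
      rw [← Finset.sum_mul, Finset.sum_sub_distrib, hSre, Finset.sum_const, Finset.card_univ,
        nsmul_eq_mul, ← Nat.card_eq_fintype_card, hT, hd]
      push_cast
      field_simp
      ring
    rw [Finset.sum_congr rfl h3, ← Finset.mul_sum, Finset.sum_add_distrib, h2, add_zero,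
      ← Complex.ofReal_sum, ← Complex.ofReal_natCast, ← Complex.ofReal_mul, Complex.ofReal_re] at h1
    exact (mul_nonneg_iff_of_pos_left hG).1 h1
  -- the sum of the squares
  have hsq : ((p : ℝ) - 1) * Nat.card (P : Subgroup G) ≤ ∑ χ ∈ blk M G, t χ ^ 2 := by
    set EE : Finset W := (Finset.univ : Finset W).erase 1 with hEE
    have hne1 : ∀ u ∈ EE, (u : G) ≠ 1 := fun u hu h => (Finset.mem_erase.1 hu).1 (Subtype.ext h)
    set b : W → W → ℝ := fun x y => (∑ χ ∈ blk M G, (χ : G → ℂ) x * conj ((χ : G → ℂ) y)).re with hb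
    have h1 : ∑ χ ∈ blk M G, t χ ^ 2 = ∑ u ∈ EE, ∑ v ∈ EE, b u v := by
      have h3 : ∀ χ ∈ blk M G, t χ ^ 2 =
          (∑ u ∈ EE, ∑ v ∈ EE, (χ : G → ℂ) u * conj ((χ : G → ℂ) v)).re := by
        intro χ _
        have h4 : t χ ^ 2 = (T W (χ : G → ℂ) * conj (T W (χ : G → ℂ))).re := by
          rw [hT, Complex.conj_ofReal, ← Complex.ofReal_mul, Complex.ofReal_re]
          ring
        rw [h4, T_eq_sum, map_sum, Finset.sum_mul_sum]
      rw [Finset.sum_congr rfl h3, ← Complex.re_sum, Finset.sum_comm, Complex.re_sum]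
      refine Finset.sum_congr rfl fun u _ => ?_
      rw [Finset.sum_comm, Complex.re_sum]
    have hdiag : ∀ u ∈ EE, b u u = Nat.card (P : Subgroup G) := by
      intro u hu
      rw [hb]
      simp only
      rw [norm_Zc h hM (hWZ u u.2) (hne1 u hu), Complex.natCast_re]
    have hnn : ∀ u ∈ EE, ∀ v ∈ EE, 0 ≤ b u v := by
      intro u hu v hv
      rw [hb]
      simp only
      by_cases hc : IsConj (u : G) v
      · have h3 : ∑ χ ∈ blk M G, (χ : G → ℂ) u * conj ((χ : G → ℂ) v) =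
            ∑ χ ∈ blk M G, (χ : G → ℂ) u * conj ((χ : G → ℂ) u) :=
          Finset.sum_congr rfl fun χ _ => by rw [Blocks.Basic.irr_isConj χ.2 hc]
        rw [h3, norm_Zc h hM (hWZ u u.2) (hne1 u hu), Complex.natCast_re]
        exact Nat.cast_nonneg _
      · rw [cross_Zc hM (hWZ u u.2) (hne1 u hu) (hWZ v v.2) (hne1 v hv) hc, Complex.zero_re]
    have hrow : ∀ u ∈ EE, (Nat.card (P : Subgroup G) : ℝ) ≤ ∑ v ∈ EE, b u v := by
      intro u hu
      rw [← hdiag u hu]
      exact Finset.single_le_sum (f := fun v => b u v) (fun v hv => hnn u hu v hv) hu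
    rw [h1]
    refine le_trans (le_of_eq ?_) (Finset.sum_le_sum hrow)
    rw [Finset.sum_const, nsmul_eq_mul, hEE, Finset.card_erase_of_mem (Finset.mem_univ _),
      Finset.card_univ, ← Nat.card_eq_fintype_card, hcard, Nat.cast_sub hp.one_lt.le, Nat.cast_one]
  have hone := one_mem_blk (G := G) hM
  have hT1r : t (one G) = (p : ℝ) - 1 := by
    show (T W ((one G : IrrCharacter G) : G → ℂ)).re = _
    have : T W ((one G : IrrCharacter G) : G → ℂ) = (Nat.card W : ℂ) - 1 := by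
      unfold T
      show ∑ w : W, (1 : ℂ) - 1 = _
      rw [Finset.sum_const, Finset.card_univ, nsmul_eq_mul, ← Nat.card_eq_fintype_card, mul_one]
    rw [this, hcard]
    simp
  have hd1 : (d (one G) : ℝ) = 1 := by
    have := hd (one G)
    have h10 : ((one G : IrrCharacter G) : G → ℂ) 1 = 1 := rfl
    rw [h10] at this
    exact_mod_cast this.symm
  rw [← Finset.add_sum_erase _ _ hone, hT1r] at hcub hsq
  rw [hd1] at hcub
  refine numericB ((blk M G).erase (one G)) t (fun χ => (d χ : ℝ)) (p : ℝ)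
    (Nat.card (P : Subgroup G) : ℝ) hp3' (by exact_mod_cast hP2) (fun χ _ => by exact_mod_cast hd0 χ)
    hTle ?_ ?_
  · linarith
  · linarith

end Cfsg.Agent.H267.ThmC
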