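import Mathlib
import Cfsg.Agent.H267.ThmC4

/-!
# Theorem C

Let `p` be an odd prime and `G` a nonabelian finite simple group with Sylow `p`-subgroup `P ≠ 1`.  It is
impossible that

* `G`-conjugates in `P` of elements of `Ω₁(Z(P))` are in `Ω₁(Z(P))`;
* centralizers of elements of order `p` have normal `p`-complements;
* any two elements of order `p` generate a `p`-solvable subgroup.
-/

set_option autoImplicit false

namespace Cfsg.Agent.H267.ThmC

open Cfsg Cfsg.Agent.Characters Cfsg.Agent.Characters.Core Cfsg.Agent.H267.ThmA Cfsg.Agent.H267.Invar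
open scoped ComplexConjugate

variable {G : Type*} [Group G] [Finite G] {p : ℕ} [Fact p.Prime]

theorem exists_Zc {P : Sylow p G} (hdvd : p ∣ Nat.card G) : ∃ z ∈ Zc p (P : Subgroup G), z ≠ 1 := by
  have hp : p.Prime := Fact.out
  have hnt : Nontrivial (P : Subgroup G) := by
    rw [Subgroup.nontrivial_iff_ne_bot]
    exact P.ne_bot_of_dvd_card hdvd
  have hc : Nontrivial (Subgroup.center (P : Subgroup G)) := P.isPGroup'.center_nontrivial
  have hcp : IsPGroup p (Subgroup.center (P : Subgroup G)) := P.isPGroup'.to_subgroup _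
  have hd : p ∣ Nat.card (Subgroup.center (P : Subgroup G)) := by
    obtain ⟨n, hn⟩ := IsPGroup.iff_card.1 hcp
    rw [hn]
    refine dvd_pow_self p ?_
    rintro rfl
    rw [pow_zero] at hn
    exact (Finite.one_lt_card (α := Subgroup.center (P : Subgroup G))).ne' hn
  obtain ⟨z, hz⟩ := exists_prime_orderOf_dvd_card' p hd
  have hz1 : ((z : (P : Subgroup G)) : G) ≠ 1 := by
    intro h
    have : z = 1 := Subtype.ext (Subtype.ext h)
    rw [this, orderOf_one] at hz
    exact hp.one_lt.ne hz
  refine ⟨((z : (P : Subgroup G)) : G), ⟨(z : (P : Subgroup G)).2, fun r hr => ?_, ?_⟩, hz1⟩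
  · have := Subgroup.mem_center_iff.1 z.2 ⟨r, hr⟩
    exact congrArg Subtype.val this
  · have h1 : z ^ p = 1 := orderOf_dvd_iff_pow_eq_one.1 (dvd_of_eq hz)
    have h2 := congrArg (fun w : Subgroup.center (P : Subgroup G) => ((w : (P : Subgroup G)) : G)) h1
    simpa using h2

/-- A `p`-element of the centralizer of `z ∈ Ω₁(Z(P))` is conjugate into `P` by an element of the
centralizer. -/
theorem exists_conj_mem {P : Sylow p G} {z : G} (hz : z ∈ Zc p (P : Subgroup G)) {y : G} (hy : y ^ p = 1)
    (hyz : y * z = z * y) : ∃ c : G, c * z = z * c ∧ c * y * c⁻¹ ∈ (P : Subgroup G) := by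
  set C : Subgroup G := Subgroup.centralizer ({z} : Set G) with hC
  have hPC : (P : Subgroup G) ≤ C := by
    intro r hr
    rw [hC, Subgroup.mem_centralizer_singleton_iff]
    exact hz.2.1 r hr
  have hyC : y ∈ C := by
    rw [hC, Subgroup.mem_centralizer_singleton_iff]
    exact hyz
  obtain ⟨S, hS⟩ := exists_sylow_of_orderOf (p := p) (y := (⟨y, hyC⟩ : C)) (Subtype.ext (by
    rw [Subgroup.coe_pow]
    exact hy))
  obtain ⟨c, hc⟩ := MulAction.exists_smul_eq C S (P.subtype hPC)
  refine ⟨c, Subgroup.mem_centralizer_singleton_iff.1 c.2, ?_⟩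
  have h1 : c * (⟨y, hyC⟩ : C) * c⁻¹ ∈ ((c • S : Sylow p C) : Subgroup C) := by
    rw [mem_smul_sylow]
    have : c⁻¹ * (c * (⟨y, hyC⟩ : C) * c⁻¹) * c = ⟨y, hyC⟩ := by group
    rw [this]
    exact hS
  rw [hc] at h1
  exact h1

/-- **Theorem C.** -/
theorem thmC [IsSimpleGroup G] (hG : ¬ ∀ a b : G, a * b = b * a) (hp2 : p ≠ 2) {P : Sylow p G}
    (h : HypC p P) (hdvd : p ∣ Nat.card G) : False := by
  have hp : p.Prime := Fact.out
  have hp3 : 3 ≤ p := by
    have := hp.two_le
    omega
  have hclos : ∀ z : G, z ≠ 1 → Subgroup.normalClosure (Subgroup.zpowers z : Set G) = ⊤ := by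
    intro z hz1
    rcases IsSimpleGroup.eq_bot_or_eq_top_of_normal
      (Subgroup.normalClosure (Subgroup.zpowers z : Set G)) inferInstance with h1 | h1
    · exfalso
      apply hz1
      have h2 : z ∈ Subgroup.normalClosure (Subgroup.zpowers z : Set G) :=
        Subgroup.subset_normalClosure (Subgroup.mem_zpowers z)
      rw [h1, Subgroup.mem_bot] at h2
      exact h2
    · exact h1
  by_cases hA : ∃ z ∈ Zc p (P : Subgroup G), z ≠ 1 ∧ ∀ z' ∈ Zc p (P : Subgroup G), IsConj z z' →
      z' ∈ Subgroup.zpowers z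
  · obtain ⟨z, hz, hz1, hcz⟩ := hA
    have hzo := orderOf_Zc hp hz hz1
    have hcard : Nat.card (Subgroup.zpowers z) = p := by rw [Nat.card_zpowers, hzo]
    have hWZ : ∀ w ∈ Subgroup.zpowers z, w ∈ Zc p (P : Subgroup G) := fun w hw =>
      (Subgroup.zpowers_le.2 hz) hw
    have hWp : IsPGroup p (Subgroup.zpowers z) := IsPGroup.of_card (n := 1) (by rw [hcard, pow_one])
    refine false_of_simple hG (W := Subgroup.zpowers z) (p := p) ⟨?_, hWp, ?_⟩ (by rw [hcard]; exact hp3)
    · exact fun u hu v hv => Zc_comm (hWZ u hu) (hWZ v hv)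
    · intro g
      obtain ⟨K, k, a, hP⟩ := exists_pair h hz hz1 hz hz1 g
      set y : G := (k⁻¹ * g) * z * (k⁻¹ * g)⁻¹ with hy
      have hyz : y * z = z * y := by
        have h1 : (a⁻¹ * z * a) * (a⁻¹ * y * a) = (a⁻¹ * y * a) * (a⁻¹ * z * a) := Zc_comm hP.ax hP.ay
        have h2 : z * y = a * ((a⁻¹ * z * a) * (a⁻¹ * y * a)) * a⁻¹ := by group
        rw [h2, h1]
        group
      have hyp : y ^ p = 1 := by rw [hy, conj_pow, hz.2.2, mul_one, mul_inv_cancel]
      obtain ⟨c, hcz', hcy⟩ := exists_conj_mem hz hyp hyz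
      have h1 : c * y * c⁻¹ = (c * (k⁻¹ * g)) * z * (c * (k⁻¹ * g))⁻¹ := by rw [hy]; group
      have h2 : c * y * c⁻¹ ∈ Subgroup.zpowers z := by
        apply hcz
        · rw [h1] at hcy ⊢
          exact h.fus z hz _ hcy
        · rw [h1]
          exact isConj_iff.2 ⟨_, rfl⟩
      have h3 : y ∈ Subgroup.zpowers z := by
        obtain ⟨i, hi⟩ := Subgroup.mem_zpowers_iff.1 h2
        have h4 : y = c⁻¹ * (c * y * c⁻¹) * c := by group
        have h5 : Commute c (z ^ i) := (show Commute c z from hcz').zpow_right i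
        rw [h4, ← hi]
        have h6 : c⁻¹ * z ^ i * c = z ^ i := by
          have h7 : c * z ^ i = z ^ i * c := h5
          calc c⁻¹ * z ^ i * c = c⁻¹ * (z ^ i * c) := by group
            _ = c⁻¹ * (c * z ^ i) := by rw [h7]
            _ = z ^ i := by group
        rw [h6]
        exact zpow_mem (Subgroup.mem_zpowers z) i
      refine ⟨K, hP.cop, ?_, ?_, k⁻¹, K.inv_mem hP.kK, ?_⟩
      · intro w hw u hu
        have h4 : Subgroup.zpowers z ≤ Subgroup.normalizer (K : Set G) := by
          rw [Subgroup.zpowers_le]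
          exact normalizer_of_finite hP.nx
        exact (Subgroup.mem_normalizer_iff.1 (h4 hw) u).1 hu
      · intro w hw hw1 v hv hwv
        exact mem_core' h (orderOf_pow hp hWp hw) hw1 (not_dvd_orderOf hp hP.cop hv) hwv
      · apply normalizer_of_finite
        rintro _ ⟨i, rfl⟩
        have h4 := zpow_mem h3 i
        rw [conj_zpow] at h4
        exact h4
  · push Not at hA
    obtain ⟨x, hx, hx1⟩ := exists_Zc (P := P) hdvd
    have hxo := orderOf_Zc hp hx hx1
    have hPp2 : p ^ 2 ≤ Nat.card (P : Subgroup G) := by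
      obtain ⟨z', hz', -, hne⟩ := hA x hx hx1
      obtain ⟨n, hn⟩ := IsPGroup.iff_card.1 P.isPGroup'
      rw [hn]
      apply Nat.pow_le_pow_right hp.pos
      by_contra hlt
      have hn1 : n ≤ 1 := by omega
      have h1 : Nat.card (P : Subgroup G) ≤ Nat.card (Subgroup.zpowers x) := by
        rw [hn, Nat.card_zpowers, hxo]
        calc p ^ n ≤ p ^ 1 := Nat.pow_le_pow_right hp.pos hn1
          _ = p := pow_one p
      have h2 : Subgroup.zpowers x = (P : Subgroup G) :=
        Subgroup.eq_of_le_of_card_ge (Subgroup.zpowers_le.2 hx.1) h1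
      exact hne (h2 ▸ hz'.1)
    have h9 : 9 ≤ Nat.card (P : Subgroup G) := by
      refine le_trans ?_ hPp2
      calc 9 = 3 ^ 2 := by norm_num
        _ ≤ p ^ 2 := Nat.pow_le_pow_left hp3 2
    obtain ⟨M, hM⟩ := Blocks.ExistsModular.exists_isPModular hp
    by_cases hB : ∃ χ ∈ blk M G, χ ≠ one G ∧ ∃ d : ℕ, (χ : G → ℂ) 1 = d ∧ d < Nat.card (P : Subgroup G)
    · obtain ⟨χ, hχ, hne, d, hd, hdP⟩ := hB
      -- `P` is not normal
      have hg₀ : ∃ g₀ : G, g₀ ∉ Subgroup.normalizer ((P : Subgroup G) : Set G) := by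
        by_contra hcon
        push Not at hcon
        have hPn : (P : Subgroup G).Normal := by
          rw [← Subgroup.normalizer_eq_top_iff, Subgroup.eq_top_iff']
          exact hcon
        rcases IsSimpleGroup.eq_bot_or_eq_top_of_normal (P : Subgroup G) hPn with h1 | h1
        · rw [h1, Subgroup.card_bot] at h9
          omega
        · have h2 : x ∈ Subgroup.center G := by
            rw [Subgroup.mem_center_iff]
            intro g
            exact hx.2.1 g (h1 ▸ Subgroup.mem_top g)
          rcases IsSimpleGroup.eq_bot_or_eq_top_of_normal (Subgroup.center G) inferInstance with h3 | h3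
          · rw [h3, Subgroup.mem_bot] at h2
            exact hx1 h2
          · apply hG
            intro a b
            have : b ∈ Subgroup.center G := by rw [h3]; trivial
            exact Subgroup.mem_center_iff.1 this a
      obtain ⟨g₀, hg₀⟩ := hg₀
      exact caseB h hp2 hM (fun z hz hz1 => cent_eq h hM hχ hne hd hdP hz hz1) hx hx1 _ rfl
        (hclos x hx1) hg₀ hPp2
    · push Not at hB
      refine caseA h hp2 hM (fun χ hχ hne d hd => hB χ hχ hne d hd) h9 hx hx1 ?_
      intro z hz hz1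
      obtain ⟨z', hz', hc, hne⟩ := hA z hz hz1
      refine ⟨z', hz', ?_, hc⟩
      rintro rfl
      exact hne (Subgroup.mem_zpowers _)

end Cfsg.Agent.H267.ThmC
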