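import Mathlib
import Cfsg.Agent.H267.ThmB
import Cfsg.Agent.H267.PairSylow
import Cfsg.Agent.H267.TwoSylow
import Cfsg.Agent.H30.OneClass

/-!
# Theorem C, part 1: pairs of conjugates of central elements of order `p`

`Zc p P` is `Ω₁(Z(P))`.  Under the hypotheses `HypC` (fusion of elements of `Ω₁(Z(P))` stays in `Ω₁(Z(P))`,
centralizers of elements of order `p` have normal `p`-complements, two elements of order `p` generate a
`p`-solvable subgroup), a product of two conjugates of elements of `Ω₁(Z(P))` is `p`-regular or has the same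
values as an element of `Ω₁(Z(P))` at all characters of the principal block.
-/

set_option autoImplicit false

namespace Cfsg.Agent.H267.ThmC

open Cfsg Cfsg.Agent.Characters Cfsg.Agent.Characters.Core Cfsg.Agent.H267.ThmA Cfsg.Agent.H267.Invar
open scoped ComplexConjugate

variable {G : Type*} [Group G]

/-- `Ω₁(Z(P))`. -/
def Zc (p : ℕ) (P : Subgroup G) : Subgroup G where
  carrier := {z | z ∈ P ∧ (∀ r ∈ P, r * z = z * r) ∧ z ^ p = 1}
  one_mem' := ⟨P.one_mem, fun r _ => by rw [mul_one, one_mul], one_pow _⟩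
  mul_mem' := by
    rintro a b ⟨ha, hac, hap⟩ ⟨hb, hbc, hbp⟩
    refine ⟨P.mul_mem ha hb, fun r hr => ?_, ?_⟩
    · rw [← mul_assoc, hac r hr, mul_assoc, hbc r hr, mul_assoc]
    · have hcom : Commute a b := hbc a ha
      rw [hcom.mul_pow, hap, hbp, one_mul]
  inv_mem' := by
    rintro a ⟨ha, hac, hap⟩
    refine ⟨P.inv_mem ha, fun r hr => ?_, by rw [inv_pow, hap, inv_one]⟩
    have hcom : Commute r a := hac r hr
    exact hcom.inv_right.eq

theorem Zc_comm {p : ℕ} {P : Subgroup G} {z w : G} (hz : z ∈ Zc p P) (hw : w ∈ Zc p P) : z * w = w * z :=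
  hw.2.1 z hz.1

theorem orderOf_Zc {p : ℕ} (hp : p.Prime) {P : Subgroup G} {z : G} (hz : z ∈ Zc p P) (hz1 : z ≠ 1) :
    orderOf z = p := by
  have : Fact p.Prime := ⟨hp⟩
  exact orderOf_eq_prime hz.2.2 hz1

/-- The hypotheses of Theorem C. -/
structure HypC (p : ℕ) (P : Sylow p G) : Prop where
  fus : ∀ z ∈ Zc p (P : Subgroup G), ∀ g : G, g * z * g⁻¹ ∈ (P : Subgroup G) →
    g * z * g⁻¹ ∈ Zc p (P : Subgroup G)
  nil : ∀ x : G, orderOf x = p → HasNormalPComplement p (Subgroup.centralizer ({x} : Set G))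
  sol : ∀ x y : G, orderOf x = p → orderOf y = p → IsPSolvable p (Subgroup.closure ({x, y} : Set G))

/-- The local data at `x` and `g z g⁻¹`. -/
structure Pair (p : ℕ) (P : Subgroup G) (x z g : G) (K : Subgroup G) (k a : G) : Prop where
  cop : (Nat.card K).Coprime p
  kK : k ∈ K
  nx : ∀ u ∈ K, x * u * x⁻¹ ∈ K
  ny : ∀ u ∈ K, ((k⁻¹ * g) * z * (k⁻¹ * g)⁻¹) * u * ((k⁻¹ * g) * z * (k⁻¹ * g)⁻¹)⁻¹ ∈ K
  ax : a⁻¹ * x * a ∈ Zc p P
  ay : a⁻¹ * ((k⁻¹ * g) * z * (k⁻¹ * g)⁻¹) * a ∈ Zc p P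

variable [Finite G] {p : ℕ} [Fact p.Prime]

/-- A Sylow subgroup of a subgroup containing a conjugate of an element of `Ω₁(Z(P))` centralizes it. -/
theorem exists_conj {P : Sylow p G} (h : HypC p P) {z : G} (hz : z ∈ Zc p (P : Subgroup G)) {g : G}
    {L : Subgroup G} (S : Sylow p L) {y : L} (hy : y ∈ (S : Subgroup L)) (hyz : (y : G) = g * z * g⁻¹) :
    ∃ a : G, (∀ r ∈ (S : Subgroup L), a⁻¹ * (r : G) * a ∈ (P : Subgroup G)) ∧
      a⁻¹ * (g * z * g⁻¹) * a ∈ Zc p (P : Subgroup G) ∧ ∀ r ∈ (S : Subgroup L), r * y = y * r := by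
  have hSp : IsPGroup p ((S : Subgroup L).map L.subtype) := S.isPGroup'.map _
  obtain ⟨Q, hQ⟩ := hSp.exists_le_sylow
  obtain ⟨a, ha⟩ := MulAction.exists_smul_eq G P Q
  have h1 : ∀ r ∈ (S : Subgroup L), a⁻¹ * (r : G) * a ∈ (P : Subgroup G) := by
    intro r hr
    rw [← mem_smul_sylow, ha]
    exact hQ ⟨r, hr, rfl⟩
  have h2 : a⁻¹ * (g * z * g⁻¹) * a ∈ Zc p (P : Subgroup G) := by
    have h3 := h1 y hy
    rw [hyz] at h3
    have h4 : a⁻¹ * (g * z * g⁻¹) * a = (a⁻¹ * g) * z * (a⁻¹ * g)⁻¹ := by group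
    rw [h4] at h3 ⊢
    exact h.fus z hz _ h3
  refine ⟨a, h1, h2, fun r hr => ?_⟩
  apply Subtype.ext
  have h3 := h2.2.1 _ (h1 r hr)
  rw [← hyz] at h3
  have h4 : (r : G) * y = a * ((a⁻¹ * (r : G) * a) * (a⁻¹ * (y : G) * a)) * a⁻¹ := by group
  rw [Subgroup.coe_mul, Subgroup.coe_mul, h4, h3]
  group

theorem exists_sylow_of_orderOf {L : Type*} [Group L] [Finite L] {y : L} (hy : y ^ p = 1) :
    ∃ S : Sylow p L, y ∈ (S : Subgroup L) := by
  have hz : IsPGroup p (Subgroup.zpowers y) := by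
    rintro ⟨w, hw⟩
    obtain ⟨i, rfl⟩ := Subgroup.mem_zpowers_iff.1 hw
    refine ⟨1, Subtype.ext ?_⟩
    rw [pow_one]
    show (y ^ i) ^ p = 1
    rw [← zpow_natCast, ← zpow_mul, mul_comm, zpow_mul, zpow_natCast, hy, one_zpow]
  obtain ⟨S, hS⟩ := hz.exists_le_sylow
  exact ⟨S, hS (Subgroup.mem_zpowers y)⟩

theorem exists_pair {P : Sylow p G} (h : HypC p P) {x z : G} (hx : x ∈ Zc p (P : Subgroup G)) (hx1 : x ≠ 1)
    (hz : z ∈ Zc p (P : Subgroup G)) (hz1 : z ≠ 1) (g : G) :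
    ∃ (K : Subgroup G) (k a : G), Pair p (P : Subgroup G) x z g K k a := by
  have hp : p.Prime := Fact.out
  set y : G := g * z * g⁻¹ with hy
  have hyo : orderOf y = p := by
    have h1 : y = MulAut.conj g z := by rw [MulAut.conj_apply]
    rw [h1, MulEquiv.orderOf_eq]
    exact orderOf_Zc hp hz hz1
  set L : Subgroup G := Subgroup.closure ({x, y} : Set G) with hL
  have hsol : IsPSolvable p L := h.sol x y (orderOf_Zc hp hx hx1) hyo
  have hxL : x ∈ L := Subgroup.subset_closure (by simp)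
  have hyL : y ∈ L := Subgroup.subset_closure (by simp)
  have hxp : (⟨x, hxL⟩ : L) ^ p = 1 := Subtype.ext (by
    rw [Subgroup.coe_pow]
    exact hx.2.2)
  have hyp : (⟨y, hyL⟩ : L) ^ p = 1 := Subtype.ext (by
    rw [Subgroup.coe_pow]
    show y ^ p = 1
    rw [← hyo, pow_orderOf_eq_one])
  obtain ⟨S₁, hS₁⟩ := exists_sylow_of_orderOf hxp
  obtain ⟨S₂, hS₂⟩ := exists_sylow_of_orderOf hyp
  obtain ⟨a, ha, hax, hac⟩ := exists_conj h hx S₁ (g := 1) hS₁ (by simp)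
  obtain ⟨b, hb, hby, hbc⟩ := exists_conj h hz S₂ (g := g) hS₂ rfl
  have hZp : IsPGroup p (Subgroup.zpowers (⟨y, hyL⟩ : L)) := by
    refine IsPGroup.of_card (n := 1) ?_
    rw [Nat.card_zpowers, Subgroup.orderOf_mk, hyo, pow_one]
  obtain ⟨k, hk, hk2⟩ := PairSylow.pair_conj hsol S₁ S₂ (Z := Subgroup.zpowers (⟨y, hyL⟩ : L)) hZp (by
    rintro r hr _ ⟨i, rfl⟩
    have : Commute r (⟨y, hyL⟩ : L) := hbc r hr
    exact (this.zpow_right i).eq)
  have hk3 := hk2 _ (Subgroup.mem_zpowers _)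
  have hKn : (pPrimeCore p L).Normal := Lib.HallHigman.pPrimeCore_normal p
  have hKmem : ∀ v : L, ∀ u ∈ (pPrimeCore p L).map L.subtype,
      (v : G) * u * (v : G)⁻¹ ∈ (pPrimeCore p L).map L.subtype := by
    rintro v _ ⟨u, hu, rfl⟩
    exact ⟨v * u * v⁻¹, hKn.conj_mem u hu v, rfl⟩
  have hy' : ((k : G)⁻¹ * g) * z * ((k : G)⁻¹ * g)⁻¹ = ((k⁻¹ * (⟨y, hyL⟩ : L) * k : L) : G) := by
    show _ = (k : G)⁻¹ * y * (k : G)
    rw [hy]
    group
  refine ⟨(pPrimeCore p L).map L.subtype, k, a, ?_, ⟨k, hk, rfl⟩, ?_, ?_, ?_, ?_⟩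
  · rw [Nat.card_congr ((pPrimeCore p L).equivMapOfInjective _ L.subtype_injective).toEquiv.symm]
    exact Lib.HallHigman.pPrimeCore_coprime p
  · exact hKmem ⟨x, hxL⟩
  · rw [hy']
    exact hKmem _
  · simpa using hax
  · have h1 := ha _ hk3
    rw [← hy'] at h1
    have h2 : a⁻¹ * (((k : G)⁻¹ * g) * z * ((k : G)⁻¹ * g)⁻¹) * a =
        (a⁻¹ * ((k : G)⁻¹ * g)) * z * (a⁻¹ * ((k : G)⁻¹ * g))⁻¹ := by group
    rw [h2] at h1 ⊢
    exact h.fus z hz _ h1

/-- `p`-regular elements of the centralizer of an element of order `p`. -/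
theorem mem_core {P : Sylow p G} (h : HypC p P) {w u : G} (hw : orderOf w = p)
    (hu : ¬ p ∣ orderOf u) (hwu : w * u = u * w) : u ∈ centralizerPPrimeCore p w := by
  have huC : u ∈ Subgroup.centralizer ({w} : Set G) :=
    Subgroup.mem_centralizer_singleton_iff.2 hwu.symm
  refine ⟨⟨u, huC⟩, ?_, rfl⟩
  refine (Blocks.SectionCount.mem_pPrimeCore_iff p (H30.OneClass.index_pPrimeCore (h.nil w hw)) _).2 ?_
  rwa [Subgroup.orderOf_mk]

theorem Pair.value {P : Sylow p G} (h : HypC p P) {M : Ideal AlgInt} (hM : IsPModular p M)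
    {x z g : G} {K : Subgroup G} {k a : G} (hP : Pair p (P : Subgroup G) x z g K k a) :
    (∃ s ∈ Zc p (P : Subgroup G), s ≠ 1 ∧ ∀ χ ∈ principalBlock M G,
      (χ : G → ℂ) (x * (g * z * g⁻¹)) = (χ : G → ℂ) s) ∨
    (¬ p ∣ orderOf (x * (g * z * g⁻¹)) ∧ x * ((k⁻¹ * g) * z * (k⁻¹ * g)⁻¹) = 1) := by
  have hp : p.Prime := Fact.out
  set y' : G := (k⁻¹ * g) * z * (k⁻¹ * g)⁻¹ with hy'
  have h1 : x * (g * z * g⁻¹) = (x * y') * (y'⁻¹ * k * y' * k⁻¹) := by
    rw [hy']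
    group
  have hny : ∀ u ∈ K, y' * u * y'⁻¹ ∈ K := hP.ny
  have hyN : y' ∈ Subgroup.normalizer (K : Set G) := by
    have hle : Subgroup.zpowers y' ≤ Subgroup.normalizer (K : Set G) := by
      rw [Subgroup.zpowers_le, Subgroup.mem_normalizer_iff]
      intro u
      refine ⟨hny u, fun hu => ?_⟩
      -- the conjugation is injective, hence surjective on the finite group `K`
      let f : K → K := fun u => ⟨y' * u * y'⁻¹, hny u u.2⟩
      have hf : Function.Injective f := by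
        intro u v huv
        have : y' * (u : G) * y'⁻¹ = y' * (v : G) * y'⁻¹ := congrArg Subtype.val huv
        exact Subtype.ext (mul_left_cancel (mul_right_cancel this))
      obtain ⟨v, hv⟩ := (Finite.injective_iff_surjective.1 hf) ⟨_, hu⟩
      have : y' * (v : G) * y'⁻¹ = y' * u * y'⁻¹ := congrArg Subtype.val hv
      rw [← mul_left_cancel (mul_right_cancel this)]
      exact v.2
    exact hle (Subgroup.mem_zpowers _)
  have hxN : x ∈ Subgroup.normalizer (K : Set G) := by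
    rw [Subgroup.mem_normalizer_iff]
    intro u
    refine ⟨hP.nx u, fun hu => ?_⟩
    let f : K → K := fun u => ⟨x * u * x⁻¹, hP.nx u u.2⟩
    have hf : Function.Injective f := by
      intro u v huv
      have : x * (u : G) * x⁻¹ = x * (v : G) * x⁻¹ := congrArg Subtype.val huv
      exact Subtype.ext (mul_left_cancel (mul_right_cancel this))
    obtain ⟨v, hv⟩ := (Finite.injective_iff_surjective.1 hf) ⟨_, hu⟩
    have : x * (v : G) * x⁻¹ = x * u * x⁻¹ := congrArg Subtype.val hv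
    rw [← mul_left_cancel (mul_right_cancel this)]
    exact v.2
  have hu : y'⁻¹ * k * y' * k⁻¹ ∈ K := by
    have h2 := (Subgroup.mem_normalizer_iff.1 (inv_mem hyN) k).1 hP.kK
    rw [inv_inv] at h2
    exact K.mul_mem h2 (K.inv_mem hP.kK)
  have hsZ : a⁻¹ * (x * y') * a ∈ Zc p (P : Subgroup G) := by
    have h2 : a⁻¹ * (x * y') * a = (a⁻¹ * x * a) * (a⁻¹ * y' * a) := by group
    rw [h2]
    exact mul_mem hP.ax hP.ay
  by_cases hs : x * y' = 1
  · right
    refine ⟨?_, hs⟩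
    rw [h1, hs, one_mul]
    exact not_dvd_orderOf hp hP.cop hu
  · left
    have hs1 : a⁻¹ * (x * y') * a ≠ 1 := by
      intro h2
      apply hs
      have h3 : x * y' = a * (a⁻¹ * (x * y') * a) * a⁻¹ := by group
      rw [h3, h2, mul_one, mul_inv_cancel]
    have hso : orderOf (x * y') = p := by
      have h2 := orderOf_Zc hp hsZ hs1
      have h3 : a⁻¹ * (x * y') * a = MulAut.conj a⁻¹ (x * y') := by
        rw [MulAut.conj_apply, inv_inv]
      rwa [h3, MulEquiv.orderOf_eq] at h2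
    refine ⟨_, hsZ, hs1, fun χ hχ => ?_⟩
    rw [h1, Classification.RTwo.CoreKill.apply_mul hM hP.cop ⟨1, by rw [hso, pow_one]⟩ (mul_mem hxN hyN)
      (fun u hu hwu => mem_core h hso (not_dvd_orderOf hp hP.cop hu) hwu) hχ hu]
    have h3 : a⁻¹ * (x * y') * a = a⁻¹ * (x * y') * a⁻¹⁻¹ := by rw [inv_inv]
    rw [h3, isIrr_isClassFunction χ.2]

omit [Finite G] [Fact p.Prime] in
/-- The same data work for the inverse. -/
theorem Pair.inv {P : Subgroup G} {x z g : G} {K : Subgroup G} {k a : G} (h : Pair p P x z g K k a)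
    (hfin : Finite K) : Pair p P x z⁻¹ g K k a := by
  set y' : G := (k⁻¹ * g) * z * (k⁻¹ * g)⁻¹ with hy'
  have e : (k⁻¹ * g) * z⁻¹ * (k⁻¹ * g)⁻¹ = y'⁻¹ := by rw [hy']; group
  refine ⟨h.cop, h.kK, h.nx, ?_, h.ax, ?_⟩
  · rw [e]
    intro u hu
    let f : K → K := fun u => ⟨y' * u * y'⁻¹, h.ny u u.2⟩
    have hf : Function.Injective f := by
      intro u v huv
      have : y' * (u : G) * y'⁻¹ = y' * (v : G) * y'⁻¹ := congrArg Subtype.val huv
      exact Subtype.ext (mul_left_cancel (mul_right_cancel this))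
    obtain ⟨v, hv⟩ := (Finite.injective_iff_surjective.1 hf) ⟨u, hu⟩
    have : y' * (v : G) * y'⁻¹ = u := congrArg Subtype.val hv
    rw [← this, inv_inv]
    have h2 : y'⁻¹ * (y' * (v : G) * y'⁻¹) * y' = v := by group
    rw [h2]
    exact v.2
  · rw [e]
    have h2 : a⁻¹ * y'⁻¹ * a = (a⁻¹ * y' * a)⁻¹ := by group
    rw [h2]
    exact inv_mem h.ay

theorem value {P : Sylow p G} (h : HypC p P) {M : Ideal AlgInt} (hM : IsPModular p M)
    {x z : G} (hx : x ∈ Zc p (P : Subgroup G)) (hx1 : x ≠ 1)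
    (hz : z ∈ Zc p (P : Subgroup G)) (hz1 : z ≠ 1) (g : G) :
    (∃ s ∈ Zc p (P : Subgroup G), s ≠ 1 ∧ ∀ χ ∈ principalBlock M G,
      (χ : G → ℂ) (x * (g * z * g⁻¹)) = (χ : G → ℂ) s) ∨
    (¬ p ∣ orderOf (x * (g * z * g⁻¹)) ∧ IsConj z x⁻¹) := by
  obtain ⟨K, k, a, hP⟩ := exists_pair h hx hx1 hz hz1 g
  rcases hP.value h hM with h1 | ⟨h1, h2⟩
  · exact Or.inl h1
  · refine Or.inr ⟨h1, ?_⟩
    rw [← eq_inv_of_mul_eq_one_right h2]
    exact isConj_iff.2 ⟨_, rfl⟩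

end Cfsg.Agent.H267.ThmC
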