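import Mathlib
import Cfsg.Prelude.Def_Balance
import Cfsg.Agent.H267.OddCore
import Cfsg.Agent.StdU3.URelModel

/-!
# The centralizers of involutions in `PSU₃(2^n)`, `n ≥ 2`, are not 2-nilpotent
-/

set_option autoImplicit false

namespace Cfsg.Agent.H267.U3Case

open Cfsg Subgroup Cfsg.Agent.LieRecognition.HermHeis Cfsg.Agent.StdU3.URel

/-- there is a torus element of norm one with nontrivial weight -/
theorem exists_l {F : Type*} [Field F] [Fintype F] {n : ℕ} (hn : 2 ≤ n)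
    (hF : Fintype.card F = (2 ^ n) ^ 2) : ∃ l : Fˣ, l ^ (2 ^ n + 1) = 1 ∧ l ^ 3 ≠ 1 := by
  by_contra hcon
  push Not at hcon
  have hq : 4 ≤ 2 ^ n := by
    calc 4 = 2 ^ 2 := by norm_num
      _ ≤ 2 ^ n := Nat.pow_le_pow_right (by norm_num) hn
  have hcard : Nat.card Fˣ = (2 ^ n - 1) * (2 ^ n + 1) := by
    have h0 := Nat.sq_sub_sq (2 ^ n) 1
    rw [one_pow] at h0
    rw [Nat.card_units, Nat.card_eq_fintype_card, hF, h0, mul_comm]
  have h1 : Monoid.exponent Fˣ ∣ (2 ^ n - 1) * 3 := by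
    rw [Monoid.exponent_dvd_iff_forall_pow_eq_one]
    intro c
    rw [pow_mul]
    apply hcon
    rw [← pow_mul, ← hcard, pow_card_eq_one']
  rw [IsCyclic.exponent_eq_card, hcard] at h1
  have h2 : 2 ^ n + 1 ∣ 3 := Nat.dvd_of_mul_dvd_mul_left (by omega) h1
  have h3 := Nat.le_of_dvd (by norm_num) h2
  omega

theorem false_of_psu {K : Type*} [Group K] [Finite K] {F : Type*} [Field F] [Fintype F] {n : ℕ} (hn : 2 ≤ n)
    (hF : Fintype.card F = (2 ^ n) ^ 2) (e : K ≃* Cfsg.PSU 3 F (2 ^ n))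
    (hnil : ∀ x : K, orderOf x = 2 → HasNormalPComplement 2 (centralizer ({x} : Set K))) : False := by
  have : Fact (Nat.Prime 2) := ⟨Nat.prime_two⟩
  have hch : CharP F 2 := by
    obtain ⟨p, hp⟩ := CharP.exists F
    obtain ⟨m, hpp, hm⟩ := FiniteField.card F p
    rw [hF, ← pow_mul] at hm
    have h1 : p ∣ 2 ^ (n * 2) := by
      rw [hm]
      exact dvd_pow_self p m.2.ne'
    have h2 : p = 2 := (Nat.prime_dvd_prime_iff_eq hpp Nat.prime_two).1 (hpp.dvd_of_dvd_pow h1)
    rwa [h2] at hp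
  set σ : F →+* F := iterateFrobenius F 2 n with hσdef
  have hs : ∀ x, σ x = x ^ 2 ^ n := fun x => iterateFrobenius_def 2 n x
  have hσ : Fact (∀ x, σ (σ x) = x) := ⟨fun x => by
    rw [hs, hs, ← pow_mul, ← pow_two, ← hF]
    exact FiniteField.pow_card x⟩
  obtain ⟨R₀⟩ := StdU3.URelModel.nonempty_urel (F := F) (σ := σ) (by omega : 1 ≤ n) hs
    (by rw [Nat.card_eq_fintype_card, hF])
  let R : URel K σ := R₀.map e.symm
  obtain ⟨l, hl, hl3⟩ := exists_l (F := F) hn hF
  have hq : 1 < 2 ^ n := Nat.one_lt_two_pow (by omega)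
  have hlF : (l : F) * σ l = 1 := by
    rw [hs, ← pow_succ']
    have := congrArg Units.val hl
    simpa using this
  have hnm : nm σ l = 1 := hlF
  have hσl : (σ (l : F))⁻¹ = l := by
    exact (eq_inv_of_mul_eq_one_left hlF).symm
  have hwt : wt σ l ≠ 1 := by
    intro h
    apply hl3
    apply Units.ext
    have h1 : (l : F) ^ 2 * (σ (l : F))⁻¹ = 1 := h
    rw [hσl] at h1
    rw [Units.val_pow_eq_pow_val, Units.val_one, pow_succ, h1]
  -- the involution
  have h1σ : σ 1 = 1 := map_one σ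
  set t : Heis σ := zet 1 h1σ with ht
  have htt : t * t = 1 := (Cfsg.Agent.LieRecognition.HermHeis.mul_self_eq_one_iff t).2 rfl
  have ht1 : t ≠ 1 := by
    intro h
    have := congrArg Heis.b h
    simp [ht] at this
  have hto : orderOf (R.u t) = 2 := by
    refine orderOf_eq_prime ?_ ?_
    · rw [pow_two, ← map_mul, htt, map_one]
    · intro h
      rw [← map_one R.u] at h
      exact ht1 (R.u_inj h)
  obtain ⟨x, hx⟩ := exists_heis_a (σ := σ) hq hs (by rw [Nat.card_eq_fintype_card, hF]) 1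
  have hxt : x * t = t * x := (commute_iff x t).2 (by simp [ht])
  have hdt : R.d l * R.u t = R.u t * R.d l := by
    rw [R.d_u]
    congr 2
    ext
    · simp [ht]
    · simp [ht, hnm]
  have hC := hnil _ hto
  have h1 : R.d l ∈ centralizerPPrimeCore 2 (R.u t) := by
    refine (OddCore.mem_core_iff hC _).2 ⟨hdt, ?_⟩
    intro h2
    have h3 : orderOf (R.d l) ∣ 2 ^ n + 1 := by
      apply orderOf_dvd_of_pow_eq_one
      rw [← map_pow, hl, map_one]
    have h4 : 2 ∣ 2 ^ n + 1 := h2.trans h3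
    have h5 : 2 ∣ 2 ^ n := dvd_pow_self 2 (by omega)
    omega
  have h2 : R.d l * R.u x * (R.d l)⁻¹ * (R.u x)⁻¹ = R.u (act l x * x⁻¹) := by
    rw [R.d_u, mul_inv_cancel_right, map_mul, map_inv]
  have h3 : ∀ y : Heis σ, y ^ 2 ^ 2 = 1 := by
    intro y
    have h4 : y ^ 2 ^ 2 = (y * y) * (y * y) := by
      rw [show 2 ^ 2 = 2 + 2 by norm_num, pow_add, pow_two]
    rw [h4, Cfsg.Agent.LieRecognition.HermHeis.mul_self_eq_one_iff]
    simp [CharTwo.add_self_eq_zero]
  have h4 : R.d l * R.u x = R.u x * R.d l := by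
    refine OddCore.comm_of_pelt hC h1 ?_ (k := 2) ?_
    · rw [← map_mul, hxt, map_mul]
    · rw [h2, ← map_pow, h3, map_one]
  rw [R.d_u] at h4
  have h5 := R.u_inj (mul_right_cancel h4)
  have h6 := congrArg Heis.a h5
  rw [act_a, hx, mul_one] at h6
  exact hwt h6

end Cfsg.Agent.H267.U3Case
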